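import Cfsg.Agent.Lib.Helper41.BG11Kit
import Cfsg.Agent.S0058
import Cfsg.Agent.Lib.Helper32.BG12KITA

/-!
# B&G 12.4, piece BG11-P4B (helper12 for helper41, S1416)
-/

set_option autoImplicit false

open Cfsg Cfsg.Agent.Lib.Helper32 Cfsg.Agent.Lib.Helper32.BG10 Cfsg.Agent.Lib.Helper3.BG12
open Cfsg.Agent.Lib.Helper41.BG11

namespace Cfsg.Agent.Lib.Helper12.BG11

universe u

variable {G : Type u} [Group G] [Finite G]

omit [Finite G] in
/-- an element of order dividing `p` centralizing a maximal elementary abelian subgroup lies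
in it -/
theorem p4b_mem_of_maxEA {p : ℕ} {A : Subgroup G} (hmax : MaxEA p A) {x : G}
    (hx : x ∈ Subgroup.centralizer (A : Set G)) (hxp : x ^ p = 1) : x ∈ A := by
  have hAc : ∀ a ∈ A, ∀ b ∈ A, a * b = b * a := fun a ha b hb =>
    congrArg Subtype.val (hmax.1.1.is_comm.comm ⟨a, ha⟩ ⟨b, hb⟩)
  have hcomm : ∀ u ∈ (A : Set G) ∪ {x}, ∀ v ∈ (A : Set G) ∪ {x}, u * v = v * u := by
    rintro u (hu | hu) v (hv | hv)
    · exact hAc u hu v hv
    · rw [Set.mem_singleton_iff] at hv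
      rw [hv]
      exact Subgroup.mem_centralizer_iff.mp hx u hu
    · rw [Set.mem_singleton_iff] at hu
      rw [hu]
      exact (Subgroup.mem_centralizer_iff.mp hx v hv).symm
    · rw [Set.mem_singleton_iff] at hu hv
      rw [hu, hv]
  have h1 : Subgroup.closure ((A : Set G) ∪ {x}) ≤ Subgroup.centralizer ((A : Set G) ∪ {x}) :=
    (Subgroup.closure_le _).2 (fun u hu =>
      Subgroup.mem_centralizer_iff.2 (fun v hv => hcomm v hv u hu))
  have h2 : Subgroup.closure ((A : Set G) ∪ {x}) ≤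
      Subgroup.centralizer ((Subgroup.closure ((A : Set G) ∪ {x}) : Subgroup G) : Set G) :=
    (Subgroup.closure_le _).2 (fun u hu =>
      Subgroup.mem_centralizer_iff.2 (fun b hb =>
        (Subgroup.mem_centralizer_iff.mp (h1 hb) u hu).symm))
  have hBc : ∀ a ∈ Subgroup.closure ((A : Set G) ∪ {x}),
      ∀ b ∈ Subgroup.closure ((A : Set G) ∪ {x}), a * b = b * a :=
    fun a ha b hb => Subgroup.mem_centralizer_iff.mp (h2 hb) a ha
  have hBe : ∀ b ∈ Subgroup.closure ((A : Set G) ∪ {x}), b ^ p = 1 := by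
    intro b hb
    induction hb using Subgroup.closure_induction with
    | mem u hu =>
      rcases hu with hu | hu
      · exact hmax.1.2 u hu
      · rw [Set.mem_singleton_iff] at hu
        rw [hu]
        exact hxp
    | one => exact one_pow _
    | mul a b ha hb iha ihb =>
      rw [(show Commute a b from hBc a ha b hb).mul_pow, iha, ihb, one_mul]
    | inv a ha iha => rw [inv_pow, iha, inv_one]
  have hAB : A ≤ Subgroup.closure ((A : Set G) ∪ {x}) :=
    fun a ha => Subgroup.subset_closure (Or.inl ha)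
  have h3 := hmax.2 (Subgroup.closure ((A : Set G) ∪ {x}))
    ⟨⟨⟨fun a b => Subtype.ext (hBc a.1 a.2 b.1 b.2)⟩⟩, hBe⟩ hAB
  rw [← h3]
  exact Subgroup.subset_closure (Or.inr rfl)

omit [Finite G] in
theorem p4b_cent_le_normalizer_of_le {A A₀ : Subgroup G} (h : A₀ ≤ A) :
    Subgroup.centralizer (A : Set G) ≤ Subgroup.normalizer (A₀ : Set G) :=
  (Subgroup.centralizer_le (by exact_mod_cast h)).trans (Subgroup.centralizer_le_normalizer _)

omit [Finite G] in
theorem p4b_cent_singleton_le (a : G) :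
    Subgroup.centralizer ({a} : Set G) ≤
      Subgroup.normalizer ((Subgroup.zpowers a : Subgroup G) : Set G) := by
  refine le_trans ?_ (Subgroup.centralizer_le_normalizer _)
  intro x hx
  rw [Subgroup.mem_centralizer_iff]
  rintro y ⟨k, rfl⟩
  have h1 : a * x = x * a := Subgroup.mem_centralizer_iff.mp hx a rfl
  exact (Commute.zpow_left h1 k).eq

omit [Finite G] in
theorem p4b_norm_ne_top (hG : IsMinSimpleOddOrder G) {M : Subgroup G} (hM : IsCoatom M) {p : ℕ}
    (hp : p.Prime) {A : Subgroup G} (hAM : A ≤ M) {A₀ : Subgroup G}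
    (hA₀ : A₀ ≤ A) (hc : Nat.card A₀ = p) : Subgroup.normalizer (A₀ : Set G) ≠ ⊤ := by
  have h1 : A₀ ≠ ⊥ := by
    rintro rfl
    rw [Subgroup.card_bot] at hc
    exact hp.one_lt.ne hc
  have h2 : A₀ ≠ ⊤ := fun h => hM.1 (top_le_iff.mp (h ▸ hA₀.trans hAM))
  exact minSimple_normalizer_ne_top hG h1 h2

/-- (0): another maximal subgroup over `N(A₀)` -/
theorem p4b_other (hG : IsMinSimpleOddOrder G) {M : Subgroup G} (hM : IsCoatom M) {p : ℕ}
    (hp : p.Prime) {A : Subgroup G} (hAM : A ≤ M) (hbad : Bad M p A) {A₀ : Subgroup G}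
    (hA₀ : A₀ ≤ A) (hc : Nat.card A₀ = p) :
    ∃ L : Subgroup G, IsCoatom L ∧ L ≠ M ∧ Subgroup.normalizer (A₀ : Set G) ≤ L := by
  obtain ⟨L₀, hL₀, hN⟩ := exists_coatom_ge (p4b_norm_ne_top hG hM hp hAM hA₀ hc)
  by_cases hLM : L₀ = M
  · have h3 := hbad A₀ hA₀ hc
    push Not at h3
    obtain ⟨L, hL, hNL, hne⟩ := h3 (hLM ▸ hN)
    exact ⟨L, hL, hne, hNL⟩
  · exact ⟨L₀, hL₀, hLM, hN⟩

theorem p4b (hG : IsMinSimpleOddOrder G) (hC3 : PC3 G) {M : Subgroup G} (hM : IsCoatom M) {p : ℕ}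
    (hp : p.Prime) {A : Subgroup G} (hAM : A ≤ M) (hmax : MaxEA p A) (hAc : Nat.card A = p ^ 2)
    (hbad : Bad M p A) :
    p ∉ alpha M ∧ alphaCore M = ⊥ ∧ Group.IsNilpotent ↥(sigmaCore M) := by
  have : Fact p.Prime := ⟨hp⟩
  have hAe : IsElementaryAbelian p A := hmax.1
  have hApg : IsPGroup p A := fun g => ⟨1, by rw [pow_one]; exact Subtype.ext (hAe.2 g.1 g.2)⟩
  -- subgroups of order `p` of `A`
  have hzp : ∀ a ∈ A, a ≠ 1 → Subgroup.zpowers a ≤ A ∧ Nat.card (Subgroup.zpowers a) = p := by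
    intro a ha ha1
    refine ⟨(Subgroup.zpowers_le).2 ha, ?_⟩
    rw [Nat.card_zpowers]
    exact orderOf_eq_prime (hAe.2 a ha) ha1
  -- `A` has a nontrivial element
  obtain ⟨a₀, ha₀, ha₀1⟩ : ∃ a ∈ A, a ≠ 1 := by
    by_contra hcon
    push Not at hcon
    have h0 : A = ⊥ := (Subgroup.eq_bot_iff_forall _).2 hcon
    rw [h0, Subgroup.card_bot] at hAc
    have := hp.one_lt
    nlinarith
  -- (1)
  have h1 : p ∉ alpha M := by
    rintro ⟨-, h3⟩
    obtain ⟨P, hP, hAP⟩ := exists_sylSet_ge hApg hAM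
    have hP3 : ¬ PRankLE p 2 ↥P := fun h => h3 (prankLE_of_sylSet hP 2 h)
    have hU : UniqIn M P := uniqIn_of_rank3 (ut_of hG) hM hP.1 hp hP3
    have hPp : IsPGroup p P := isPGroup_of_mem_sylSet hP
    have hPnt : Nontrivial ↥P :=
      ⟨⟨⟨a₀, hAP ha₀⟩, 1, fun h => ha₀1 (congrArg Subtype.val h)⟩⟩
    have hcn : Nontrivial ↥(Subgroup.center ↥P) := hPp.center_nontrivial
    have hdvd : p ∣ Nat.card ↥(Subgroup.center ↥P) := by
      obtain ⟨k, hk⟩ := IsPGroup.iff_card.mp (hPp.to_subgroup (Subgroup.center ↥P))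
      have hk0 : k ≠ 0 := by
        rintro rfl
        rw [pow_zero] at hk
        have := Finite.one_lt_card (α := ↥(Subgroup.center ↥P))
        omega
      rw [hk]
      exact dvd_pow_self p hk0
    obtain ⟨z, hz⟩ := exists_prime_orderOf_dvd_card' p hdvd
    have hzP : ((z : ↥P) : G) ∈ P := (z : ↥P).2
    have hzord : orderOf ((z : ↥P) : G) = p := by
      rw [Subgroup.orderOf_coe, Subgroup.orderOf_coe, hz]
    have hzc : ∀ y ∈ P, y * ((z : ↥P) : G) = ((z : ↥P) : G) * y := by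
      intro y hy
      have h4 := Subgroup.mem_center_iff.mp z.2 ⟨y, hy⟩
      exact congrArg Subtype.val h4
    have hzA : ((z : ↥P) : G) ∈ A :=
      p4b_mem_of_maxEA hmax
        (Subgroup.mem_centralizer_iff.2 (fun y hy => hzc y (hAP hy)))
        (by rw [← hzord]; exact pow_orderOf_eq_one _)
    have hz1 : ((z : ↥P) : G) ≠ 1 := by
      intro h
      rw [h, orderOf_one] at hzord
      exact hp.one_lt.ne hzord
    obtain ⟨hle, hcard⟩ := hzp _ hzA hz1
    have hPN : P ≤ Subgroup.normalizer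
        ((Subgroup.zpowers ((z : ↥P) : G) : Subgroup G) : Set G) := by
      intro y hy
      apply p4b_cent_singleton_le
      rw [Subgroup.mem_centralizer_iff]
      intro h hh
      rw [Set.mem_singleton_iff] at hh
      rw [hh]
      exact (hzc y hy).symm
    exact hbad _ hle hcard ⟨le_of_uniqIn hU hPN (p4b_norm_ne_top hG hM hp hAM hle hcard),
      fun L hL hNL => hU L hL (hPN.trans hNL)⟩
  -- (2)
  have hDM : alphaCore M ≤ M := Subgroup.map_subtype_le _
  have hMD : M ≤ Subgroup.normalizer ((alphaCore M : Subgroup G) : Set G) :=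
    le_normalizer_map_subtype M _
  have hDα : ∀ q : ℕ, q.Prime → q ∣ Nat.card (alphaCore M) → q ∈ alpha M := by
    intro q hq hqd
    have h4 : Nat.card (alphaCore M) = Nat.card (piCore (alpha M) ↥M) :=
      Cfsg.Agent.Lib.Helper30.card_map_subtype _
    rw [h4] at hqd
    exact Cfsg.Agent.Lib.Helper66.isPi_piCore (alpha M) q hq hqd
  have hDprimes : ∀ q : ℕ, q.Prime → q ∣ Nat.card (alphaCore M) → q ∈ sigma M ∧ q ≠ p := by
    intro q hq hqd
    have hqα := hDα q hq hqd
    exact ⟨alpha_sub_sigma hG (ut_of hG) hM hqα, fun h => h1 (h ▸ hqα)⟩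
  have h2 : alphaCore M ≤ Subgroup.centralizer (A : Set G) := by
    have : IsMulCommutative ↥A := hAe.1
    have hnc : ¬ IsCyclic ↥A := not_isCyclic_of_elemAb hAe.2 (by rw [hAc])
    have hcop : (Nat.card A).Coprime (Nat.card (alphaCore M)) := by
      rw [hAc]
      apply Nat.Coprime.pow_left
      rw [Nat.Prime.coprime_iff_not_dvd hp]
      intro hpd
      exact (hDprimes p hp hpd).2 rfl
    have hS := Cfsg.Agent.S0058.result A (alphaCore M) hnc (hAM.trans hMD) hcop
    rw [← hS]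
    refine iSup₂_le (fun a ha => ?_)
    obtain ⟨haA, ha1⟩ := ha
    obtain ⟨hle, hcard⟩ := hzp a haA ha1
    obtain ⟨L, hL, hLM, hNL⟩ := p4b_other hG hM hp hAM hbad hle hcard
    have h3 := hC3 M L p A (Subgroup.zpowers a) (alphaCore M) hM hL hLM hp hAM hAe hAc hle hcard
      hNL hDM hMD hDprimes
    exact le_trans (inf_le_inf_left _ ((p4b_cent_singleton_le a).trans hNL)) h3
  -- (3)
  have h3 : alphaCore M = ⊥ := by
    by_contra hDne
    have hcard1 : Nat.card (alphaCore M) ≠ 1 := fun h => hDne (Subgroup.card_eq_one.mp h)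
    obtain ⟨q, hq, hqd⟩ := Nat.exists_prime_and_dvd hcard1
    have : Fact q.Prime := ⟨hq⟩
    have hqα := hDα q hq hqd
    obtain ⟨hHall, -⟩ := h2_of hG M hM
    obtain ⟨Q, hQ⟩ := sylSet_nonempty q (alphaCore M)
    have hQM : Q ∈ sylSet q M := by
      refine ⟨hQ.1.trans hDM, ?_⟩
      rw [hQ.2]
      congr 1
      have hcm : Nat.card M = Nat.card (alphaCore M) * (alphaCore M).relIndex M :=
        Cfsg.Agent.Lib.Helper30.card_eq_card_mul_relIndex hDM
      have hnd : ¬ q ∣ (alphaCore M).relIndex M := hHall.2.2 q hq hqα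
      have hr0 : (alphaCore M).relIndex M ≠ 0 := by
        intro h
        rw [h, mul_zero] at hcm
        exact Nat.card_pos.ne' hcm
      rw [hcm, Nat.factorization_mul Nat.card_pos.ne' hr0]
      simp [Nat.factorization_eq_zero_of_not_dvd hnd]
    have hQ3 : ¬ PRankLE q 2 ↥Q := fun h => hqα.2 (prankLE_of_sylSet hQM 2 h)
    have hQle : Q ≤ alphaCore M ⊓ Subgroup.centralizer (A : Set G) :=
      le_inf hQ.1 (hQ.1.trans h2)
    have hr : ¬ RankLE 1 ↥(alphaCore M ⊓ Subgroup.centralizer (A : Set G)) :=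
      (not_rankLE_of_not_prankLE hq (fun h => hQ3 (prankLE_mono hQle h))).1
    have hIU := h3_of hG M hM A hAM (fun p' hp' hd => by
      rw [hAc] at hd
      have h5 := (Nat.prime_dvd_prime_iff_eq hp' hp).mp (hp'.dvd_of_dvd_pow hd)
      rw [h5]
      exact h1) hr
    obtain ⟨M', hM', hle', hU'⟩ := uniqIn_of_inUniqueMaximal hIU
    have hMM' : M = M' := hU' M hM inf_le_left
    rw [← hMM'] at hU'
    obtain ⟨hle, hcard⟩ := hzp a₀ ha₀ ha₀1
    have hKN : M ⊓ Subgroup.centralizer (A : Set G) ≤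
        Subgroup.normalizer ((Subgroup.zpowers a₀ : Subgroup G) : Set G) :=
      inf_le_right.trans (p4b_cent_le_normalizer_of_le hle)
    exact hbad _ hle hcard ⟨le_of_uniqIn hU' hKN (p4b_norm_ne_top hG hM hp hAM hle hcard),
      fun L hL hNL => hU' L hL (hKN.trans hNL)⟩
  -- (4)
  refine ⟨h1, h3, ?_⟩
  have hN : piCore (alpha M) ↥M = ⊥ := by
    have h4 : (piCore (alpha M) ↥M).map M.subtype = ⊥ := h3
    exact (Subgroup.map_eq_bot_iff_of_injective _ M.subtype_injective).mp h4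
  have hnil := (h2_of hG M hM).2.2.2.2
  have hφinj : Function.Injective (QuotientGroup.mk' (piCore (alpha M) ↥M)) := by
    rw [← MonoidHom.ker_eq_bot_iff, QuotientGroup.ker_mk', hN]
  have hSM : sigmaCore M ≤ M := Subgroup.map_subtype_le _
  have hSC : ∀ x : ↥(sigmaCore M), (⟨x.1, hSM x.2⟩ : ↥M) ∈ commutator ↥M := by
    intro x
    have h5 : x.1 ∈ ⁅M, M⁆ := Cfsg.Agent.Lib.Helper32.BG12.sigmaCore_le_comm hG hM x.2
    rw [← Subgroup.map_subtype_commutator] at h5
    obtain ⟨y, hy, hyx⟩ := h5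
    have h6 : y = ⟨x.1, hSM x.2⟩ := Subtype.ext hyx
    rw [← h6]
    exact hy
  let f : ↥(sigmaCore M) →*
      ↥((commutator ↥M).map (QuotientGroup.mk' (piCore (alpha M) ↥M))) :=
    ((QuotientGroup.mk' (piCore (alpha M) ↥M)).comp (Subgroup.inclusion hSM)).codRestrict _
      (fun x => Subgroup.mem_map_of_mem _ (hSC x))
  have hf : Function.Injective f := by
    intro x y hxy
    have h6 := congrArg Subtype.val hxy
    have h7 := hφinj h6
    exact Subgroup.inclusion_injective hSM h7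
  exact Group.nilpotent_of_mulEquiv (MonoidHom.ofInjective hf).symm

end Cfsg.Agent.Lib.Helper12.BG11
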