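import Mathlib
import Cfsg.Agent.Lib.Helper4.FCDefs

/-!
# Project FC (S4146, helper4): piece AP
-/

namespace Cfsg.Agent.Lib.Helper4.FC

universe u

theorem ap_helper12_mem_sylow {M : Type u} [Group M] (p : ℕ) (P : Sylow p M)
    (hc : ∀ u y : M, u ∈ P → u * y = y * u) (y : M) (hy : ∃ k : ℕ, orderOf y = p ^ k) :
    y ∈ P := by
  have hPn : (P : Subgroup M).Normal := by
    constructor
    intro u hu g
    have h1 : g * u * g⁻¹ = u := by
      rw [← hc u g hu, mul_inv_cancel_right]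
    rw [h1]
    exact hu
  have hz : IsPGroup p (Subgroup.zpowers y) := by
    obtain ⟨k, hk⟩ := hy
    apply IsPGroup.of_card (n := k)
    rw [Nat.card_zpowers, hk]
  have hsup : IsPGroup p ↥((Subgroup.zpowers y ⊔ (P : Subgroup M) : Subgroup M)) :=
    IsPGroup.to_sup_of_normal_right hz P.isPGroup'
  have h2 := P.is_maximal' hsup le_sup_right
  have h3 : y ∈ (Subgroup.zpowers y ⊔ (P : Subgroup M) : Subgroup M) :=
    Subgroup.mem_sup_left (Subgroup.mem_zpowers y)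
  rw [h2] at h3
  exact h3

theorem ap_helper12_orderOf_conj {G : Type u} [Group G] (g a : G) :
    orderOf (g * a * g⁻¹) = orderOf a := by
  have h := MulEquiv.orderOf_eq (MulAut.conj g) a
  rw [MulAut.conj_apply] at h
  exact h

theorem fc_ap : MSubStmt.{u} → APCStmt.{u} → APStmt.{u} := by
  intro hMSub hAPC G _ _ n m p hF hmn hp hpn
  obtain ⟨M, hMn, hM⟩ := hMSub G n m hF hmn
  have hpf : Fact p.Prime := ⟨hp⟩
  obtain ⟨P⟩ : Nonempty (Sylow p M) := inferInstance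
  have hc : ∀ u y : M, u ∈ P → u * y = y * u :=
    fun u y hu => hAPC G n m p M hF hp hpn hMn hM P u y hu
  have key : ∀ y : M, (∃ k : ℕ, orderOf y = p ^ k) → y ∈ P :=
    ap_helper12_mem_sylow p P hc
  have hPo : ∀ u : M, u ∈ P → ∃ k : ℕ, orderOf u = p ^ k := by
    intro u hu
    obtain ⟨k, hk⟩ := (IsPGroup.iff_orderOf.mp P.isPGroup') ⟨u, hu⟩
    refine ⟨k, ?_⟩
    rw [← hk]
    exact (Subgroup.orderOf_mk u hu).symm
  refine ⟨(P : Subgroup M).map M.subtype, ?_, P.isPGroup'.map _, ?_, ?_, ?_⟩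
  · constructor
    intro a ha g
    obtain ⟨u, hu, rfl⟩ := ha
    have hmem : g * (u : G) * g⁻¹ ∈ M := hMn.conj_mem _ u.2 g
    refine ⟨⟨g * (u : G) * g⁻¹, hmem⟩, ?_, rfl⟩
    apply key
    obtain ⟨k, hk⟩ := hPo u hu
    refine ⟨k, ?_⟩
    rw [Subgroup.orderOf_mk, ap_helper12_orderOf_conj, Subgroup.orderOf_coe]
    exact hk
  · intro a ha b hb
    obtain ⟨u, hu, rfl⟩ := ha
    obtain ⟨v, hv, rfl⟩ := hb
    rw [← map_mul, ← map_mul, hc u v hu]
  · intro x hx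
    obtain ⟨u, hu, rfl⟩ := hx
    exact (hM _).mp u.2
  · intro x hx hcs
    have hxM : x ∈ M := (hM x).mpr hcs
    refine ⟨⟨x, hxM⟩, key _ ?_, rfl⟩
    obtain ⟨k, hk⟩ := hx
    refine ⟨k, ?_⟩
    rw [Subgroup.orderOf_mk]
    exact hk

end Cfsg.Agent.Lib.Helper4.FC
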