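import Mathlib
import Cfsg.Agent.Lib.Helper81.OSum
import Cfsg.Agent.Lib.Helper51.DicksonTwo
import Cfsg.Agent.Lib.Helper52.OmegaGeom

/-!
# Piece DETS of the OMEGA-SYL project (helper81): the determinant of an isometry is read off
from its spinor pair.
-/

set_option autoImplicit false
set_option linter.unusedSectionVars false

namespace Cfsg.Agent.Lib.Helper12.ODets

open Cfsg Cfsg.Agent.Lib.Helper51

variable {ι : Type} [Fintype ι] [DecidableEq ι] {F : Type*} [Field F] [Fintype F]

open Classical in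
/-- parities of the numbers of square / non-square reflections from the spinor pair -/
theorem spin_det_aux (h2 : (2 : F) ≠ 0) (δ₀ : F) (hδ : ¬ IsSquare δ₀)
    (Q : QuadraticForm F (ι → F)) (hQ : (QuadraticMap.polarBilin Q).Nondegenerate)
    (g : isometryGroup F ⇑Q) :
    ∃ a b : ℕ, spinPair Q δ₀ g = ((-1) ^ a, (-1) ^ b) ∧
      ((g : Matrix.GeneralLinearGroup ι F) : Matrix ι ι F).det = (-1) ^ (a + b) := by
  have hδ0 : δ₀ ≠ 0 := by
    rintro rfl
    exact hδ ⟨0, by simp⟩
  have hcardF : Fintype.card F ≠ 2 := by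
    intro h
    apply h2
    have := FiniteField.cast_card_eq_zero F
    rw [h] at this
    exact_mod_cast this
  obtain ⟨vs, h, rfl⟩ := hall_of_finite Q hQ (Or.inl hcardF) g
  refine ⟨vs.countP (fun v => IsSquare (Q v)), vs.countP (fun v => ¬ IsSquare (Q v)), ?_, ?_⟩
  · rw [spinPair_apply, spinChar_reflList Q h2 1 one_ne_zero, spinChar_reflList Q h2 δ₀ hδ0]
    have hc1 : vs.countP (fun v => IsSquare (1 * Q v)) = vs.countP (fun v => IsSquare (Q v)) := by
      simp
    have hc2 : vs.countP (fun v => IsSquare (δ₀ * Q v))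
        = vs.countP (fun v => ¬ IsSquare (Q v)) := by
      apply List.countP_congr
      intro v hv
      have := isSquare_mul_iff hδ0 (h v hv)
      simp only [decide_eq_true_eq]
      rw [this]
      simp [hδ]
    rw [hc1, hc2]
  · rw [Cfsg.Agent.Lib.Helper52.det_reflList]
    have hlen : vs.length = vs.countP (fun v => IsSquare (Q v))
        + vs.countP (fun v => ¬ IsSquare (Q v)) := by
      have := List.length_eq_countP_add_countP (fun v => decide (IsSquare (Q v))) (l := vs)
      simpa using this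
    rw [← hlen]

theorem det_of_spinPair_one (h2 : (2 : F) ≠ 0) (δ₀ : F) (hδ : ¬ IsSquare δ₀)
    (Q : QuadraticForm F (ι → F)) (hQ : (QuadraticMap.polarBilin Q).Nondegenerate)
    (g : isometryGroup F ⇑Q) (hg : spinPair Q δ₀ g = 1) :
    ((g : Matrix.GeneralLinearGroup ι F) : Matrix ι ι F).det = 1 := by
  obtain ⟨a, b, hab, hdet⟩ := spin_det_aux h2 δ₀ hδ Q hQ g
  rw [hab, Prod.mk_eq_one] at hg
  obtain ⟨e1, e2⟩ := hg
  have hunit : (-1 : ℤˣ) ≠ 1 := by decide
  have ev1 : Even a := by
    by_contra hne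
    rw [Nat.not_even_iff_odd] at hne
    rw [Odd.neg_one_pow hne] at e1
    exact hunit e1
  have ev2 : Even b := by
    by_contra hne
    rw [Nat.not_even_iff_odd] at hne
    rw [Odd.neg_one_pow hne] at e2
    exact hunit e2
  rw [hdet, Even.neg_one_pow (ev1.add ev2)]

theorem det_of_spinPair_refl (h2 : (2 : F) ≠ 0) (δ₀ : F) (hδ : ¬ IsSquare δ₀)
    (Q : QuadraticForm F (ι → F)) (hQ : (QuadraticMap.polarBilin Q).Nondegenerate)
    (g : isometryGroup F ⇑Q)
    (hg : spinPair Q δ₀ g = (-1, 1) ∨ spinPair Q δ₀ g = (1, -1)) :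
    ((g : Matrix.GeneralLinearGroup ι F) : Matrix ι ι F).det = -1 := by
  obtain ⟨a, b, hab, hdet⟩ := spin_det_aux h2 δ₀ hδ Q hQ g
  have hunit : (-1 : ℤˣ) ≠ 1 := by decide
  have hunit' : (1 : ℤˣ) ≠ -1 := by decide
  rw [hab] at hg
  rw [hdet]
  rcases hg with hg | hg
  · rw [Prod.mk.injEq] at hg
    obtain ⟨e1, e2⟩ := hg
    have od1 : Odd a := by
      by_contra hne
      rw [Nat.not_odd_iff_even] at hne
      rw [Even.neg_one_pow hne] at e1
      exact hunit' e1
    have ev2 : Even b := by
      by_contra hne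
      rw [Nat.not_even_iff_odd] at hne
      rw [Odd.neg_one_pow hne] at e2
      exact hunit e2
    exact Odd.neg_one_pow (od1.add_even ev2)
  · rw [Prod.mk.injEq] at hg
    obtain ⟨e1, e2⟩ := hg
    have ev1 : Even a := by
      by_contra hne
      rw [Nat.not_even_iff_odd] at hne
      rw [Odd.neg_one_pow hne] at e1
      exact hunit e1
    have od2 : Odd b := by
      by_contra hne
      rw [Nat.not_odd_iff_even] at hne
      rw [Even.neg_one_pow hne] at e2
      exact hunit' e2
    exact Odd.neg_one_pow (ev1.add_odd od2)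

end Cfsg.Agent.Lib.Helper12.ODets
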