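import Mathlib
import Cfsg.Agent.Lib.Helper81.OSum

/-!
# Piece DSTR of the OMEGA-SYL project (helper81): isometries of `x² + y²` and of `c x²` as
matrices.
-/

set_option autoImplicit false
set_option linter.unusedSectionVars false

namespace Cfsg.Agent.Lib.Helper12.OPlane

open Cfsg Cfsg.Agent.Lib.Helper51 Cfsg.Agent.Lib.Helper81.OSum

variable {F : Type*} [Field F]

/-- the explicit bijection `Unit ⊕ Unit ≃ Fin 2` -/
def e2 : Unit ⊕ Unit ≃ Fin 2 where
  toFun := Sum.elim (fun _ => 0) (fun _ => 1)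
  invFun := fun i => if i = 0 then Sum.inl () else Sum.inr ()
  left_inv := by rintro (⟨⟩ | ⟨⟩) <;> simp
  right_inv := by intro i; fin_cases i <;> simp

theorem det_uu (M : Matrix (Unit ⊕ Unit) (Unit ⊕ Unit) F) :
    M.det = M (Sum.inl ()) (Sum.inl ()) * M (Sum.inr ()) (Sum.inr ())
      - M (Sum.inl ()) (Sum.inr ()) * M (Sum.inr ()) (Sum.inl ()) := by
  rw [← Matrix.det_reindex_self e2 M, Matrix.det_fin_two]
  rfl

theorem mulVec_uu (M : Matrix (Unit ⊕ Unit) (Unit ⊕ Unit) F) (x : Unit ⊕ Unit → F)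
    (i : Unit ⊕ Unit) :
    M.mulVec x i = M i (Sum.inl ()) * x (Sum.inl ()) + M i (Sum.inr ()) * x (Sum.inr ()) := by
  simp [Matrix.mulVec, dotProduct, Fintype.sum_sum_type]

theorem mul_uu (M N : Matrix (Unit ⊕ Unit) (Unit ⊕ Unit) F) (i j : Unit ⊕ Unit) :
    (M * N) i j = M i (Sum.inl ()) * N (Sum.inl ()) j + M i (Sum.inr ()) * N (Sum.inr ()) j := by
  simp [Matrix.mul_apply, Fintype.sum_sum_type]

/-- the defining relations of an isometry of `x² + y²` -/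
theorem plane_rel (h2 : (2 : F) ≠ 0) (g : isometryGroup F ⇑(osum (uf (1 : F)) (uf (1 : F)))) :
    ((g : Matrix.GeneralLinearGroup (Unit ⊕ Unit) F) : Matrix (Unit ⊕ Unit) (Unit ⊕ Unit) F)
        (Sum.inl ()) (Sum.inl ()) ^ 2
      + ((g : Matrix.GeneralLinearGroup (Unit ⊕ Unit) F) : Matrix (Unit ⊕ Unit) (Unit ⊕ Unit) F)
        (Sum.inr ()) (Sum.inl ()) ^ 2 = 1 ∧
    ((g : Matrix.GeneralLinearGroup (Unit ⊕ Unit) F) : Matrix (Unit ⊕ Unit) (Unit ⊕ Unit) F)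
        (Sum.inl ()) (Sum.inr ()) ^ 2
      + ((g : Matrix.GeneralLinearGroup (Unit ⊕ Unit) F) : Matrix (Unit ⊕ Unit) (Unit ⊕ Unit) F)
        (Sum.inr ()) (Sum.inr ()) ^ 2 = 1 ∧
    ((g : Matrix.GeneralLinearGroup (Unit ⊕ Unit) F) : Matrix (Unit ⊕ Unit) (Unit ⊕ Unit) F)
        (Sum.inl ()) (Sum.inl ())
      * ((g : Matrix.GeneralLinearGroup (Unit ⊕ Unit) F) : Matrix (Unit ⊕ Unit) (Unit ⊕ Unit) F)
        (Sum.inl ()) (Sum.inr ())
      + ((g : Matrix.GeneralLinearGroup (Unit ⊕ Unit) F) : Matrix (Unit ⊕ Unit) (Unit ⊕ Unit) F)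
        (Sum.inr ()) (Sum.inl ())
      * ((g : Matrix.GeneralLinearGroup (Unit ⊕ Unit) F) : Matrix (Unit ⊕ Unit) (Unit ⊕ Unit) F)
        (Sum.inr ()) (Sum.inr ()) = 0 := by
  generalize hM : ((g : Matrix.GeneralLinearGroup (Unit ⊕ Unit) F) :
    Matrix (Unit ⊕ Unit) (Unit ⊕ Unit) F) = M
  have key : ∀ x y : F,
      (M (Sum.inl ()) (Sum.inl ()) * x + M (Sum.inl ()) (Sum.inr ()) * y) ^ 2
        + (M (Sum.inr ()) (Sum.inl ()) * x + M (Sum.inr ()) (Sum.inr ()) * y) ^ 2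
        = x ^ 2 + y ^ 2 := by
    intro x y
    have h := isometry_apply (osum (uf (1 : F)) (uf (1 : F))) g
      (Sum.elim (fun _ => x) (fun _ => y))
    rw [hM, osum_apply, osum_apply, uf_apply, uf_apply, uf_apply, uf_apply] at h
    simp only [mulVec_uu, Sum.elim_inl, Sum.elim_inr, one_mul] at h
    linear_combination h
  have h1 := key 1 0
  have h2' := key 0 1
  have h3 := key 1 1
  refine ⟨by linear_combination h1, by linear_combination h2', ?_⟩
  have h4 : 2 * (M (Sum.inl ()) (Sum.inl ()) * M (Sum.inl ()) (Sum.inr ())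
      + M (Sum.inr ()) (Sum.inl ()) * M (Sum.inr ()) (Sum.inr ())) = 0 := by
    linear_combination h3 - h1 - h2'
  exact (mul_eq_zero.mp h4).resolve_left h2

/-- the second column of an isometry of `x² + y²` is `det` times the rotated first column -/
theorem plane_form (h2 : (2 : F) ≠ 0) (g : isometryGroup F ⇑(osum (uf (1 : F)) (uf (1 : F)))) :
    ((g : Matrix.GeneralLinearGroup (Unit ⊕ Unit) F) : Matrix (Unit ⊕ Unit) (Unit ⊕ Unit) F)
        (Sum.inr ()) (Sum.inr ())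
      = ((g : Matrix.GeneralLinearGroup (Unit ⊕ Unit) F) :
          Matrix (Unit ⊕ Unit) (Unit ⊕ Unit) F).det
        * ((g : Matrix.GeneralLinearGroup (Unit ⊕ Unit) F) :
          Matrix (Unit ⊕ Unit) (Unit ⊕ Unit) F) (Sum.inl ()) (Sum.inl ()) ∧
    ((g : Matrix.GeneralLinearGroup (Unit ⊕ Unit) F) : Matrix (Unit ⊕ Unit) (Unit ⊕ Unit) F)
        (Sum.inl ()) (Sum.inr ())
      = -(((g : Matrix.GeneralLinearGroup (Unit ⊕ Unit) F) :
          Matrix (Unit ⊕ Unit) (Unit ⊕ Unit) F).det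
        * ((g : Matrix.GeneralLinearGroup (Unit ⊕ Unit) F) :
          Matrix (Unit ⊕ Unit) (Unit ⊕ Unit) F) (Sum.inr ()) (Sum.inl ())) := by
  obtain ⟨h1, -, h3⟩ := plane_rel h2 g
  rw [det_uu]
  generalize hM : ((g : Matrix.GeneralLinearGroup (Unit ⊕ Unit) F) :
    Matrix (Unit ⊕ Unit) (Unit ⊕ Unit) F) = M at h1 h3 ⊢
  constructor
  · linear_combination (-(M (Sum.inr ()) (Sum.inr ()))) * h1 + M (Sum.inr ()) (Sum.inl ()) * h3
  · linear_combination (-(M (Sum.inl ()) (Sum.inr ()))) * h1 + M (Sum.inl ()) (Sum.inl ()) * h3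

theorem plane_det (h2 : (2 : F) ≠ 0) (g : isometryGroup F ⇑(osum (uf (1 : F)) (uf (1 : F)))) :
    ((g : Matrix.GeneralLinearGroup (Unit ⊕ Unit) F) : Matrix (Unit ⊕ Unit) (Unit ⊕ Unit) F).det
        = 1 ∨
    ((g : Matrix.GeneralLinearGroup (Unit ⊕ Unit) F) : Matrix (Unit ⊕ Unit) (Unit ⊕ Unit) F).det
        = -1 := by
  obtain ⟨h1, h2', h3⟩ := plane_rel h2 g
  rw [det_uu]
  generalize hM : ((g : Matrix.GeneralLinearGroup (Unit ⊕ Unit) F) :
    Matrix (Unit ⊕ Unit) (Unit ⊕ Unit) F) = M at h1 h2' h3 ⊢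
  have hsq : (M (Sum.inl ()) (Sum.inl ()) * M (Sum.inr ()) (Sum.inr ())
      - M (Sum.inl ()) (Sum.inr ()) * M (Sum.inr ()) (Sum.inl ()) - 1)
      * (M (Sum.inl ()) (Sum.inl ()) * M (Sum.inr ()) (Sum.inr ())
      - M (Sum.inl ()) (Sum.inr ()) * M (Sum.inr ()) (Sum.inl ()) + 1) = 0 := by
    linear_combination (M (Sum.inl ()) (Sum.inr ()) ^ 2 + M (Sum.inr ()) (Sum.inr ()) ^ 2) * h1
      + h2' - (M (Sum.inl ()) (Sum.inl ()) * M (Sum.inl ()) (Sum.inr ())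
      + M (Sum.inr ()) (Sum.inl ()) * M (Sum.inr ()) (Sum.inr ())) * h3
  rcases mul_eq_zero.mp hsq with h | h
  · left
    linear_combination h
  · right
    linear_combination h

theorem plane_refl_sq (h2 : (2 : F) ≠ 0)
    (g : isometryGroup F ⇑(osum (uf (1 : F)) (uf (1 : F))))
    (hg : ((g : Matrix.GeneralLinearGroup (Unit ⊕ Unit) F) :
      Matrix (Unit ⊕ Unit) (Unit ⊕ Unit) F).det = -1) : g * g = 1 := by
  obtain ⟨h1, -, -⟩ := plane_rel h2 g
  obtain ⟨hd, hb⟩ := plane_form h2 g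
  rw [hg] at hd hb
  apply isometry_ext
  rw [coe_mul']
  show _ = (1 : Matrix (Unit ⊕ Unit) (Unit ⊕ Unit) F)
  generalize hM : ((g : Matrix.GeneralLinearGroup (Unit ⊕ Unit) F) :
    Matrix (Unit ⊕ Unit) (Unit ⊕ Unit) F) = M at h1 hd hb ⊢
  ext i j
  rw [mul_uu]
  obtain ⟨⟨⟩⟩ | ⟨⟨⟩⟩ := i <;> obtain ⟨⟨⟩⟩ | ⟨⟨⟩⟩ := j <;> (try rw [hd]) <;> (try rw [hb])
  · rw [Matrix.one_apply_eq]
    linear_combination h1
  · rw [Matrix.one_apply_ne (by simp)]
    ring
  · rw [Matrix.one_apply_ne (by simp)]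
    ring
  · rw [Matrix.one_apply_eq]
    linear_combination h1

theorem plane_rot_refl (h2 : (2 : F) ≠ 0)
    (u s : isometryGroup F ⇑(osum (uf (1 : F)) (uf (1 : F))))
    (hu : ((u : Matrix.GeneralLinearGroup (Unit ⊕ Unit) F) :
      Matrix (Unit ⊕ Unit) (Unit ⊕ Unit) F).det = 1)
    (hs : ((s : Matrix.GeneralLinearGroup (Unit ⊕ Unit) F) :
      Matrix (Unit ⊕ Unit) (Unit ⊕ Unit) F).det = -1) : u * s * u = s := by
  obtain ⟨h1, -, -⟩ := plane_rel h2 u
  obtain ⟨hd, hb⟩ := plane_form h2 u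
  obtain ⟨hd', hb'⟩ := plane_form h2 s
  rw [hu] at hd hb
  rw [hs] at hd' hb'
  apply isometry_ext
  rw [coe_mul', coe_mul']
  generalize hM : ((u : Matrix.GeneralLinearGroup (Unit ⊕ Unit) F) :
    Matrix (Unit ⊕ Unit) (Unit ⊕ Unit) F) = M at h1 hd hb ⊢
  generalize hN : ((s : Matrix.GeneralLinearGroup (Unit ⊕ Unit) F) :
    Matrix (Unit ⊕ Unit) (Unit ⊕ Unit) F) = N at hd' hb' ⊢
  ext i j
  rw [mul_uu, mul_uu, mul_uu]
  obtain ⟨⟨⟩⟩ | ⟨⟨⟩⟩ := i <;> obtain ⟨⟨⟩⟩ | ⟨⟨⟩⟩ := j <;> (try rw [hd]) <;> (try rw [hb]) <;>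
    (try rw [hd']) <;> (try rw [hb'])
  · linear_combination (N (Sum.inl ()) (Sum.inl ())) * h1
  · linear_combination (N (Sum.inr ()) (Sum.inl ())) * h1
  · linear_combination (N (Sum.inr ()) (Sum.inl ())) * h1
  · linear_combination (-(N (Sum.inl ()) (Sum.inl ()))) * h1

theorem unit_sq (c : F) (hc : c ≠ 0) (g : isometryGroup F ⇑(uf c)) : g * g = 1 := by
  have h := isometry_apply (uf c) g (fun _ => 1)
  rw [uf_apply, uf_apply] at h
  have hm : ((g : Matrix.GeneralLinearGroup Unit F) : Matrix Unit Unit F) () ()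
      * ((g : Matrix.GeneralLinearGroup Unit F) : Matrix Unit Unit F) () () = 1 := by
    have h' : ((g : Matrix.GeneralLinearGroup Unit F) : Matrix Unit Unit F).mulVec (fun _ => 1) ()
        = ((g : Matrix.GeneralLinearGroup Unit F) : Matrix Unit Unit F) () () := by
      simp [Matrix.mulVec, dotProduct]
    rw [h'] at h
    have h'' : c * (((g : Matrix.GeneralLinearGroup Unit F) : Matrix Unit Unit F) () ()
        * ((g : Matrix.GeneralLinearGroup Unit F) : Matrix Unit Unit F) () ()) = c * 1 := by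
      rw [h]
      ring
    exact mul_left_cancel₀ hc h''
  apply isometry_ext
  rw [coe_mul']
  show _ = (1 : Matrix Unit Unit F)
  ext i j
  rw [Matrix.mul_apply, Matrix.one_apply_eq]
  simpa using hm

theorem unit_exists_ne_one (h2 : (2 : F) ≠ 0) (c : F) : ∃ g : isometryGroup F ⇑(uf c), g ≠ 1 := by
  have hmem : (-1 : Matrix.GeneralLinearGroup Unit F) ∈ isometryGroup F ⇑(uf c) := by
    rw [mem_isometryGroup_iff]
    intro x
    rw [uf_apply, uf_apply, Units.val_neg, Units.val_one, Matrix.neg_mulVec, Matrix.one_mulVec]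
    simp
  refine ⟨⟨-1, hmem⟩, ?_⟩
  intro h
  have h' : (-1 : Matrix.GeneralLinearGroup Unit F) = 1 := congrArg Subtype.val h
  have h'' : ((-1 : Matrix.GeneralLinearGroup Unit F) : Matrix Unit Unit F) () ()
      = ((1 : Matrix.GeneralLinearGroup Unit F) : Matrix Unit Unit F) () () := by rw [h']
  rw [Units.val_neg, Units.val_one, Matrix.neg_apply, Matrix.one_apply_eq] at h''
  apply h2
  linear_combination (-1 : F) * h''

end Cfsg.Agent.Lib.Helper12.OPlane
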