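import Mathlib
import Cfsg.Agent.Lib.Helper48.QADefs

/-!
# Project QA (helper48, S2787): piece QA-BMAIN
-/

set_option autoImplicit false

universe u

namespace Cfsg.Agent.Lib.Helper48.QA

open Matrix Polynomial

local notation "SL2" F => Matrix.SpecialLinearGroup (Fin 2) F
local notation "M2" F => Matrix (Fin 2) (Fin 2) F

theorem bmain_ux_zero {F : Type u} [CommRing F] : ux (0 : F) = 1 := by
  apply Subtype.ext
  show !![(1 : F), 0; 0, 1] = (1 : M2 F)
  exact Matrix.one_fin_two.symm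

theorem bmain_ly_zero {F : Type u} [CommRing F] : ly (0 : F) = 1 := by
  apply Subtype.ext
  show !![(1 : F), 0; 0, 1] = (1 : M2 F)
  exact Matrix.one_fin_two.symm

theorem bmain_ux_mul {F : Type u} [CommRing F] (a b : F) : ux a * ux b = ux (a + b) := by
  apply Subtype.ext
  show !![(1 : F), a; 0, 1] * !![(1 : F), b; 0, 1] = !![(1 : F), a + b; 0, 1]
  rw [Matrix.mul_fin_two]
  congr 1
  ext i j
  fin_cases i <;> fin_cases j <;> simp [add_comm]

theorem bmain_ly_mul {F : Type u} [CommRing F] (a b : F) : ly a * ly b = ly (a + b) := by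
  apply Subtype.ext
  show !![(1 : F), 0; a, 1] * !![(1 : F), 0; b, 1] = !![(1 : F), 0; a + b, 1]
  rw [Matrix.mul_fin_two]
  congr 1
  ext i j
  fin_cases i <;> fin_cases j <;> simp [add_comm]

theorem bmain_ux_pow {F : Type u} [CommRing F] (l : F) (n : ℕ) :
    (ux l) ^ n = ux ((n : F) * l) := by
  induction n with
  | zero => rw [pow_zero, Nat.cast_zero, zero_mul, bmain_ux_zero]
  | succ n ih =>
    rw [pow_succ, ih, bmain_ux_mul]
    congr 1
    push_cast
    ring

theorem bmain_ly_pow {F : Type u} [CommRing F] (l : F) (n : ℕ) :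
    (ly l) ^ n = ly ((n : F) * l) := by
  induction n with
  | zero => rw [pow_zero, Nat.cast_zero, zero_mul, bmain_ly_zero]
  | succ n ih =>
    rw [pow_succ, ih, bmain_ly_mul]
    congr 1
    push_cast
    ring

theorem bmain_trace {F : Type u} [CommRing F] (l : F) :
    Matrix.trace ((ux l * ly (1 : F) : SL2 F) : M2 F) = 2 + l := by
  show Matrix.trace (!![(1 : F), l; 0, 1] * !![(1 : F), 0; 1, 1]) = 2 + l
  rw [Matrix.mul_fin_two, Matrix.trace_fin_two_of]
  ring

/-- QA-BMAIN -/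
theorem sl2_order_four {F : Type u} [Field F] {p : ℕ} [Fact p.Prime] [CharP F p] (hp2 : p ≠ 2)
    (l : F) (hl : l ≠ 0) (hfin : Finite ↥(Subgroup.closure {ux l, ly (1 : F)}))
    (hNC : ∀ (S : Subgroup (SL2 F)) [Finite S], (∀ s ∈ S, orderOf s ≠ 4) →
      ∀ (r : ℕ) [Fact r.Prime], r ≠ p → ∀ R : Sylow r S,
        Subgroup.normalizer (R : Set S) ≤ Subgroup.centralizer (R : Set S))
    (htransfer : ∀ (G : Type u) [Group G] [Finite G] (T : Set G), Subgroup.closure T = ⊤ →
      (∀ t ∈ T, t ^ p = 1) →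
      (∀ (r : ℕ) [Fact r.Prime], r ≠ p → ∀ R : Sylow r G,
        Subgroup.normalizer (R : Set G) ≤ Subgroup.centralizer (R : Set G)) →
      ∃ k : ℕ, Nat.card G = p ^ k)
    (htrp : ∀ (g : SL2 F) (k : ℕ), g ^ (p ^ k) = 1 → Matrix.trace (g : M2 F) = 2) :
    ∃ s ∈ Subgroup.closure {ux l, ly (1 : F)}, orderOf s = 4 := by
  by_contra hcon
  push Not at hcon
  have hux : ux l ∈ Subgroup.closure {ux l, ly (1 : F)} :=
    Subgroup.subset_closure (by simp)
  have hly : ly (1 : F) ∈ Subgroup.closure {ux l, ly (1 : F)} :=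
    Subgroup.subset_closure (by simp)
  have hNC' := @hNC (Subgroup.closure {ux l, ly (1 : F)}) hfin hcon
  have hp0 : ((p : ℕ) : F) = 0 := CharP.cast_eq_zero F p
  have key : ∃ k : ℕ, Nat.card ↥(Subgroup.closure {ux l, ly (1 : F)}) = p ^ k := by
    refine @htransfer ↥(Subgroup.closure {ux l, ly (1 : F)}) _ hfin
      {⟨ux l, hux⟩, ⟨ly 1, hly⟩} ?_ ?_ ?_
    · have hset : ({⟨ux l, hux⟩, ⟨ly 1, hly⟩} : Set ↥(Subgroup.closure {ux l, ly (1 : F)})) =
          ((↑) : ↥(Subgroup.closure {ux l, ly (1 : F)}) → SL2 F) ⁻¹' {ux l, ly (1 : F)} := by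
        ext ⟨x, hx⟩
        simp [Subtype.ext_iff]
      rw [hset]
      exact Subgroup.closure_closure_coe_preimage
    · intro t ht
      rcases ht with rfl | rfl
      · apply Subtype.ext
        show (ux l) ^ p = 1
        rw [bmain_ux_pow, hp0, zero_mul, bmain_ux_zero]
      · apply Subtype.ext
        show (ly (1 : F)) ^ p = 1
        rw [bmain_ly_pow, hp0, zero_mul, bmain_ly_zero]
    · intro r _ hr R
      exact hNC' r hr R
  obtain ⟨k, hk⟩ := key
  have h1 : (⟨ux l * ly 1, Subgroup.mul_mem _ hux hly⟩ :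
      ↥(Subgroup.closure {ux l, ly (1 : F)})) ^ (p ^ k) = 1 := by
    rw [← hk]
    exact pow_card_eq_one'
  have h2 : (ux l * ly (1 : F)) ^ (p ^ k) = 1 := by
    have h := congrArg Subtype.val h1
    simpa using h
  have h3 := htrp _ k h2
  rw [bmain_trace] at h3
  apply hl
  linear_combination h3

end Cfsg.Agent.Lib.Helper48.QA
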