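import Mathlib
import Cfsg.Agent.S0999
import Cfsg.Agent.Lib.Helper6.PSLCard

/-! S0496 piece PSLORD (helper12 for helper11): orders forced by a large prime. -/

set_option autoImplicit false

namespace Cfsg.Agent.S496

theorem pslord_sq_sub_one (k : ℕ) : (k + 1) ^ 2 - (k + 1) ^ 0 = k * (k + 2) := by
  rw [pow_zero]
  have h : (k + 1) ^ 2 = k * (k + 2) + 1 := by ring
  omega

theorem pslord_sq_sub_self (k : ℕ) : (k + 1) ^ 2 - (k + 1) ^ 1 = k * (k + 1) := by
  rw [pow_one]
  have h : (k + 1) ^ 2 = k * (k + 1) + (k + 1) := by ring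
  omega

theorem card_of_large_prime {G : Type*} [Group G] [Finite G] [IsSimpleGroup G] (hG : ¬ IsMulCommutative G)
    (p : ℕ) (hp : p.Prime) (hdvd : p ∣ Nat.card G) (hbig : Nat.card G < p ^ 3) (hle : Nat.card G ≤ 1092) :
    Nat.card G = 60 ∨ Nat.card G = 168 ∨ Nat.card G = 660 ∨ Nat.card G = 1092 := by
  have hcyc : ¬ IsCyclic G := fun h => hG IsCyclic.isMulCommutative
  rcases Cfsg.Agent.S0999.result hcyc p hp hdvd hbig with
    ⟨F, _, _, hF, h3, ⟨e⟩⟩ | ⟨m, F, _, _, hF, hpm, h3, ⟨e⟩⟩
  · -- `|F| = p`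
    have hN : Nat.card G = Nat.card (Matrix.ProjectiveSpecialLinearGroup (Fin 2) F) :=
      Nat.card_congr e.toEquiv
    have hc := Cfsg.Agent.Lib.Helper6.card_psl hF 2 (by norm_num)
    rw [← hN, Fin.prod_univ_two] at hc
    obtain ⟨k, rfl⟩ : ∃ k, p = k + 1 := ⟨p - 1, by omega⟩
    have hk3 : 3 ≤ k := by omega
    have hodd : Odd (k + 1) := hp.odd_of_ne_two (by omega)
    have hkeven : 2 ∣ k := by
      obtain ⟨j, hj⟩ := hodd
      exact ⟨j, by omega⟩
    have hgcd : Nat.gcd 2 (k + 1 - 1) = 2 := by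
      rw [Nat.add_sub_cancel]
      exact Nat.gcd_eq_left hkeven
    have e0 : ((0 : Fin 2) : ℕ) = 0 := rfl
    have e1 : ((1 : Fin 2) : ℕ) = 1 := rfl
    rw [hgcd, e0, e1, pslord_sq_sub_one, pslord_sq_sub_self, Nat.add_sub_cancel] at hc
    have hc2 : 2 * Nat.card G = (k + 2) * (k * (k + 1)) := by
      have h4 : k * (2 * Nat.card G) = k * ((k + 2) * (k * (k + 1))) := by
        calc k * (2 * Nat.card G) = 2 * (k * Nat.card G) := by ring
          _ = k * (k + 2) * (k * (k + 1)) := hc
          _ = k * ((k + 2) * (k * (k + 1))) := by ring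
      exact Nat.eq_of_mul_eq_mul_left (by omega) h4
    have hk12 : k ≤ 12 := by
      by_contra hcon
      have h5 : 13 ≤ k := by omega
      have h6 : 15 * (13 * 14) ≤ (k + 2) * (k * (k + 1)) :=
        Nat.mul_le_mul (by omega) (Nat.mul_le_mul h5 (by omega))
      omega
    interval_cases k
    · exact absurd hp (by norm_num)
    · left; omega
    · exact absurd hp (by norm_num)
    · right; left; omega
    · exact absurd hp (by norm_num)
    · exact absurd hp (by norm_num)
    · exact absurd hp (by norm_num)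
    · right; right; left; omega
    · exact absurd hp (by norm_num)
    · right; right; right; omega
  · -- `|F| = 2 ^ m`, `p = 2 ^ m + 1`
    have hN : Nat.card G = Nat.card (Matrix.ProjectiveSpecialLinearGroup (Fin 2) F) :=
      Nat.card_congr e.toEquiv
    have hc := Cfsg.Agent.Lib.Helper6.card_psl hF 2 (by norm_num)
    rw [← hN, Fin.prod_univ_two] at hc
    have hm1 : 1 ≤ m := by
      by_contra hcon
      have hm0 : m = 0 := by omega
      rw [hm0, pow_zero] at hpm
      omega
    obtain ⟨j, hj⟩ : ∃ j, 2 ^ m = j + 1 := ⟨2 ^ m - 1, by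
      have := Nat.one_le_two_pow (n := m)
      omega⟩
    have hjodd : Odd j := by
      have h2 : 2 ∣ 2 ^ m := dvd_pow_self 2 (by omega)
      rw [hj] at h2
      obtain ⟨t, ht⟩ := h2
      exact ⟨t - 1, by omega⟩
    have hgcd : Nat.gcd 2 (j + 1 - 1) = 1 := by
      rw [Nat.add_sub_cancel]
      exact Nat.coprime_two_left.mpr hjodd
    have e0 : ((0 : Fin 2) : ℕ) = 0 := rfl
    have e1 : ((1 : Fin 2) : ℕ) = 1 := rfl
    rw [hj, hgcd, e0, e1, pslord_sq_sub_one, pslord_sq_sub_self, Nat.add_sub_cancel, one_mul] at hc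
    have hj2 : 2 ≤ j := by omega
    have hc2 : Nat.card G = (j + 2) * (j * (j + 1)) := by
      have h4 : j * Nat.card G = j * ((j + 2) * (j * (j + 1))) := by
        calc j * Nat.card G = j * (j + 2) * (j * (j + 1)) := hc
          _ = j * ((j + 2) * (j * (j + 1))) := by ring
      exact Nat.eq_of_mul_eq_mul_left (by omega) h4
    have hj9 : j ≤ 9 := by
      by_contra hcon
      have h5 : 10 ≤ j := by omega
      have h6 : 12 * (10 * 11) ≤ (j + 2) * (j * (j + 1)) :=
        Nat.mul_le_mul (by omega) (Nat.mul_le_mul h5 (by omega))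
      omega
    have hm3 : m ≤ 3 := by
      by_contra hcon
      have h5 : 2 ^ 4 ≤ 2 ^ m := Nat.pow_le_pow_right (by norm_num) (by omega)
      omega
    interval_cases m
    · omega
    · left
      have hj3 : j = 3 := by omega
      rw [hc2, hj3]
    · rw [hpm] at hp
      exact absurd hp (by norm_num)

end Cfsg.Agent.S496
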