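import Mathlib

/-!
# Abstract counting core, part one

Finite-sum manipulations behind the bound for `2`-blocks with a major subsection of small rank:
from the row and trace identities at all Galois conjugates, the integrality and parity of the
averaged diagonal contributions and the AM-GM lower bounds.
-/

set_option autoImplicit false

namespace Cfsg.Agent.Lib.Helper12.SamC1

open scoped ComplexConjugate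

/-- The summed squared contributions. -/
noncomputable def T {I : Type*} (PR : Finset ℂ) (F : I → I → ℂ → ℂ) (χ ψ : I) : ℝ :=
  ∑ η ∈ PR, Complex.normSq (F χ ψ η)

theorem T_nonneg {I : Type*} (PR : Finset ℂ) (F : I → I → ℂ → ℂ) (χ ψ : I) :
    0 ≤ T PR F χ ψ :=
  Finset.sum_nonneg fun _ _ => Complex.normSq_nonneg _

theorem T_symm {I : Type*} (B : Finset I) (PR : Finset ℂ) (F : I → I → ℂ → ℂ)
    (hsymm : ∀ η ∈ PR, ∀ χ ∈ B, ∀ ψ ∈ B, F ψ χ η = conj (F χ ψ η)) (χ : I) (hχ : χ ∈ B)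
    (ψ : I) (hψ : ψ ∈ B) : T PR F ψ χ = T PR F χ ψ := by
  unfold T
  refine Finset.sum_congr rfl fun η hη => ?_
  rw [hsymm η hη χ hχ ψ hψ, Complex.normSq_conj]

theorem key {I : Type*} (B : Finset I) (PR : Finset ℂ) (F : I → I → ℂ → ℂ) (P : ℕ)
    (a : I → ℤ)
    (hrow : ∀ η ∈ PR, ∀ χ ∈ B, ∑ ψ ∈ B, F χ ψ η * conj (F χ ψ η) = (P : ℂ) * F χ χ η)
    (hint : ∀ χ ∈ B, ∑ η ∈ PR, F χ χ η = (PR.card : ℂ) * (a χ : ℂ)) (χ : I) (hχ : χ ∈ B) :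
    (P : ℝ) * ((PR.card : ℝ) * (a χ : ℝ)) = ∑ ψ ∈ B, T PR F χ ψ := by
  unfold T
  rw [Finset.sum_comm]
  apply Complex.ofReal_injective
  have h1 : ((∑ η ∈ PR, ∑ ψ ∈ B, Complex.normSq (F χ ψ η) : ℝ) : ℂ) =
      ∑ η ∈ PR, (P : ℂ) * F χ χ η := by
    rw [Complex.ofReal_sum]
    refine Finset.sum_congr rfl fun η hη => ?_
    rw [← hrow η hη χ hχ, Complex.ofReal_sum]
    refine Finset.sum_congr rfl fun ψ _ => ?_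
    rw [Complex.mul_conj]
  rw [h1, ← Finset.mul_sum, hint χ hχ]
  push_cast
  ring

theorem sum_a {I : Type*} (B : Finset I) (PR : Finset ℂ) (hPR : 0 < PR.card)
    (F : I → I → ℂ → ℂ) (P l : ℕ) (a : I → ℤ)
    (htr : ∀ η ∈ PR, ∑ χ ∈ B, F χ χ η = (P : ℂ) * (l : ℂ))
    (hint : ∀ χ ∈ B, ∑ η ∈ PR, F χ χ η = (PR.card : ℂ) * (a χ : ℂ)) :
    ∑ χ ∈ B, a χ = (P : ℤ) * (l : ℤ) := by
  have h2 : ((∑ χ ∈ B, a χ : ℤ) : ℂ) = (((P : ℤ) * (l : ℤ) : ℤ) : ℂ) := by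
    have hPRc : (PR.card : ℂ) ≠ 0 := Nat.cast_ne_zero.mpr hPR.ne'
    apply mul_left_cancel₀ hPRc
    calc (PR.card : ℂ) * ((∑ χ ∈ B, a χ : ℤ) : ℂ)
        = ∑ χ ∈ B, (PR.card : ℂ) * (a χ : ℂ) := by
          rw [Int.cast_sum, Finset.mul_sum]
      _ = ∑ χ ∈ B, ∑ η ∈ PR, F χ χ η := Finset.sum_congr rfl fun χ hχ => (hint χ hχ).symm
      _ = ∑ η ∈ PR, ∑ χ ∈ B, F χ χ η := Finset.sum_comm
      _ = ∑ η ∈ PR, (P : ℂ) * (l : ℂ) := Finset.sum_congr rfl fun η hη => htr η hη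
      _ = (PR.card : ℂ) * (((P : ℤ) * (l : ℤ) : ℤ) : ℂ) := by
          rw [Finset.sum_const, nsmul_eq_mul]
          push_cast
          ring
  exact_mod_cast h2

section Abstract

variable {I : Type*} (B : Finset I) (ht : I → ℕ) (N P : ℕ) (a : I → ℤ) (T : I → I → ℝ)

theorem a_pos_of_T_pos (hN : 0 < N) (hP : 0 < P) (hT0 : ∀ χ ψ, 0 ≤ T χ ψ)
    (hkey : ∀ χ ∈ B, (P : ℝ) * ((N : ℝ) * (a χ : ℝ)) = ∑ ψ ∈ B, T χ ψ)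
    (χ : I) (hχ : χ ∈ B) (ψ : I) (hψ : ψ ∈ B) (hpos : 0 < T χ ψ) : 0 < a χ := by
  have hNr : (0 : ℝ) < (N : ℝ) := by exact_mod_cast hN
  have hPr : (0 : ℝ) < (P : ℝ) := by exact_mod_cast hP
  have h1 : T χ ψ ≤ ∑ ψ' ∈ B, T χ ψ' :=
    Finset.single_le_sum (f := fun ψ' => T χ ψ') (fun ψ' _ => hT0 χ ψ') hψ
  rw [← hkey χ hχ] at h1
  by_contra hle
  push Not at hle
  have h2 : (a χ : ℝ) ≤ 0 := by exact_mod_cast hle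
  have h3 : (P : ℝ) * ((N : ℝ) * (a χ : ℝ)) ≤ 0 :=
    mul_nonpos_of_nonneg_of_nonpos hPr.le (mul_nonpos_of_nonneg_of_nonpos hNr.le h2)
  linarith

theorem a_nonneg (hN : 0 < N) (hP : 0 < P) (hT0 : ∀ χ ψ, 0 ≤ T χ ψ)
    (hkey : ∀ χ ∈ B, (P : ℝ) * ((N : ℝ) * (a χ : ℝ)) = ∑ ψ ∈ B, T χ ψ)
    (χ : I) (hχ : χ ∈ B) : 0 ≤ a χ := by
  have hNr : (0 : ℝ) < (N : ℝ) := by exact_mod_cast hN
  have hPr : (0 : ℝ) < (P : ℝ) := by exact_mod_cast hP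
  have h1 : (0 : ℝ) ≤ ∑ ψ' ∈ B, T χ ψ' := Finset.sum_nonneg fun ψ' _ => hT0 χ ψ'
  rw [← hkey χ hχ] at h1
  by_contra hlt
  push Not at hlt
  have h2 : (a χ : ℝ) < 0 := by exact_mod_cast hlt
  have h3 : (P : ℝ) * ((N : ℝ) * (a χ : ℝ)) < 0 :=
    mul_neg_of_pos_of_neg hPr (mul_neg_of_pos_of_neg hNr h2)
  linarith

theorem a_ge_pow (hN : 0 < N) (hP : 0 < P) (hT0 : ∀ χ ψ, 0 ≤ T χ ψ)
    (hTs : ∀ χ ∈ B, ∀ ψ ∈ B, T ψ χ = T χ ψ)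
    (hkey : ∀ χ ∈ B, (P : ℝ) * ((N : ℝ) * (a χ : ℝ)) = ∑ ψ ∈ B, T χ ψ)
    (hdiv : ∀ χ ∈ B, 0 < ht χ → (2 : ℤ) ^ (ht χ + 1) ∣ a χ)
    (hamgm : ∀ χ ∈ B, ht χ = 0 → ∀ ψ ∈ B, (N : ℝ) * (4 : ℝ) ^ ht ψ ≤ T χ ψ)
    (h0 : ∃ χ ∈ B, ht χ = 0) (χ : I) (hχ : χ ∈ B) (hh : 0 < ht χ) :
    (2 : ℤ) ^ (ht χ + 1) ≤ a χ := by
  have hNr : (0 : ℝ) < (N : ℝ) := by exact_mod_cast hN
  obtain ⟨χ₀, hχ₀, hht₀⟩ := h0
  have h1 := hamgm χ₀ hχ₀ hht₀ χ hχ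
  have h2 : (0 : ℝ) < (N : ℝ) * (4 : ℝ) ^ ht χ := by positivity
  have h3 : 0 < T χ χ₀ := by
    rw [hTs χ₀ hχ₀ χ hχ]
    linarith
  have h4 := a_pos_of_T_pos B N P a T hN hP hT0 hkey χ hχ χ₀ hχ₀ h3
  exact Int.le_of_dvd h4 (hdiv χ hχ hh)

theorem core_one [DecidableEq I] (l : ℕ) (hN : 0 < N) (hP : 0 < P) (hT0 : ∀ χ ψ, 0 ≤ T χ ψ)
    (hTs : ∀ χ ∈ B, ∀ ψ ∈ B, T ψ χ = T χ ψ)
    (hkey : ∀ χ ∈ B, (P : ℝ) * ((N : ℝ) * (a χ : ℝ)) = ∑ ψ ∈ B, T χ ψ)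
    (hsum : ∑ χ ∈ B, a χ = (P : ℤ) * (l : ℤ))
    (hodd : ∀ χ ∈ B, ht χ = 0 → Odd (a χ))
    (hdiv : ∀ χ ∈ B, 0 < ht χ → (2 : ℤ) ^ (ht χ + 1) ∣ a χ)
    (hamgm : ∀ χ ∈ B, ht χ = 0 → ∀ ψ ∈ B, (N : ℝ) * (4 : ℝ) ^ ht ψ ≤ T χ ψ)
    (h0 : ∃ χ ∈ B, ht χ = 0) (hl : l ≤ 3) :
    3 * (B.filter (fun χ => ht χ = 0)).card +
      2 * ∑ χ ∈ B.filter (fun χ => 1 ≤ ht χ), 2 ^ ht χ ≤ 3 * P := by
  have hNr : (0 : ℝ) < (N : ℝ) := by exact_mod_cast hN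
  have hLHS : 3 * (B.filter (fun χ => ht χ = 0)).card +
      2 * ∑ χ ∈ B.filter (fun χ => 1 ≤ ht χ), 2 ^ ht χ =
      ∑ χ ∈ B, (if ht χ = 0 then 3 else 2 * 2 ^ ht χ) := by
    rw [Finset.card_eq_sum_ones, Finset.mul_sum, Finset.mul_sum, Finset.sum_filter,
      Finset.sum_filter, ← Finset.sum_add_distrib]
    refine Finset.sum_congr rfl fun χ _ => ?_
    by_cases h : ht χ = 0
    · simp [h]
    · have h' : 1 ≤ ht χ := Nat.one_le_iff_ne_zero.mpr h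
      simp [h, h']
  rw [hLHS]
  by_cases hA : ∃ χ ∈ B, ht χ = 0 ∧ a χ = 1
  · obtain ⟨χ₁, hχ₁, hht₁, ha₁⟩ := hA
    have h1 := hkey χ₁ hχ₁
    rw [ha₁] at h1
    have h2 : (N : ℝ) * ∑ ψ ∈ B, (4 : ℝ) ^ ht ψ ≤ (N : ℝ) * (P : ℝ) := by
      calc (N : ℝ) * ∑ ψ ∈ B, (4 : ℝ) ^ ht ψ = ∑ ψ ∈ B, (N : ℝ) * (4 : ℝ) ^ ht ψ := by
            rw [Finset.mul_sum]
        _ ≤ ∑ ψ ∈ B, T χ₁ ψ := Finset.sum_le_sum fun ψ hψ => hamgm χ₁ hχ₁ hht₁ ψ hψ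
        _ = (N : ℝ) * (P : ℝ) := by
            rw [← h1]
            push_cast
            ring
    have h3 : ∑ ψ ∈ B, (4 : ℝ) ^ ht ψ ≤ (P : ℝ) := le_of_mul_le_mul_left h2 hNr
    have h4 : ∑ ψ ∈ B, 4 ^ ht ψ ≤ P := by exact_mod_cast h3
    have hpt : ∀ χ ∈ B, (if ht χ = 0 then 3 else 2 * 2 ^ ht χ) ≤ 3 * 4 ^ ht χ := by
      intro χ _
      split_ifs with h
      · rw [h]; norm_num
      · have : 2 ^ ht χ ≤ 4 ^ ht χ := Nat.pow_le_pow_left (by norm_num) _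
        omega
    calc ∑ χ ∈ B, (if ht χ = 0 then 3 else 2 * 2 ^ ht χ)
        ≤ ∑ χ ∈ B, 3 * 4 ^ ht χ := Finset.sum_le_sum hpt
      _ = 3 * ∑ χ ∈ B, 4 ^ ht χ := by rw [Finset.mul_sum]
      _ ≤ 3 * P := Nat.mul_le_mul_left _ h4
  · push Not at hA
    have hw_le : ∀ χ ∈ B, (((if ht χ = 0 then 3 else 2 * 2 ^ ht χ : ℕ)) : ℤ) ≤ a χ := by
      intro χ hχ
      by_cases h : ht χ = 0
      · have ho := hodd χ hχ h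
        have hn := a_nonneg B N P a T hN hP hT0 hkey χ hχ
        have hne := hA χ hχ h
        rw [if_pos h]
        obtain ⟨k, hk⟩ := ho
        push_cast
        omega
      · have hp := a_ge_pow B ht N P a T hN hP hT0 hTs hkey hdiv hamgm h0 χ hχ
          (Nat.pos_of_ne_zero h)
        rw [if_neg h]
        push_cast
        rw [pow_succ] at hp
        linarith
    have h5 : ((∑ χ ∈ B, (if ht χ = 0 then 3 else 2 * 2 ^ ht χ) : ℕ) : ℤ) ≤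
        (P : ℤ) * (l : ℤ) := by
      rw [← hsum, Nat.cast_sum]
      exact Finset.sum_le_sum hw_le
    have h6 : ∑ χ ∈ B, (if ht χ = 0 then 3 else 2 * 2 ^ ht χ) ≤ P * l := by exact_mod_cast h5
    calc ∑ χ ∈ B, (if ht χ = 0 then 3 else 2 * 2 ^ ht χ) ≤ P * l := h6
      _ ≤ P * 3 := Nat.mul_le_mul_left _ hl
      _ = 3 * P := mul_comm _ _

end Abstract

theorem sam_core_one {I : Type*} [DecidableEq I] (B : Finset I) (ht : I → ℕ) (PR : Finset ℂ)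
    (hPR : 0 < PR.card) (F : I → I → ℂ → ℂ) (d l : ℕ) (a : I → ℤ)
    (hrow : ∀ η ∈ PR, ∀ χ ∈ B,
      ∑ ψ ∈ B, F χ ψ η * conj (F χ ψ η) = ((2 ^ d : ℕ) : ℂ) * F χ χ η)
    (htr : ∀ η ∈ PR, ∑ χ ∈ B, F χ χ η = ((2 ^ d : ℕ) : ℂ) * (l : ℂ))
    (hsymm : ∀ η ∈ PR, ∀ χ ∈ B, ∀ ψ ∈ B, F ψ χ η = conj (F χ ψ η))
    (hint : ∀ χ ∈ B, ∑ η ∈ PR, F χ χ η = (PR.card : ℂ) * (a χ : ℂ))
    (hodd : ∀ χ ∈ B, ht χ = 0 → Odd (a χ))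
    (hdiv : ∀ χ ∈ B, 0 < ht χ → (2 : ℤ) ^ (ht χ + 1) ∣ a χ)
    (hamgm : ∀ χ ∈ B, ht χ = 0 → ∀ ψ ∈ B,
      (PR.card : ℝ) * (4 : ℝ) ^ ht ψ ≤ ∑ η ∈ PR, Complex.normSq (F χ ψ η))
    (h0 : ∃ χ ∈ B, ht χ = 0) (hl : l ≤ 3) :
    3 * (B.filter (fun χ => ht χ = 0)).card +
      2 * ∑ χ ∈ B.filter (fun χ => 1 ≤ ht χ), 2 ^ ht χ ≤ 3 * 2 ^ d :=
  core_one B ht PR.card (2 ^ d) a (T PR F) l hPR (by positivity) (T_nonneg PR F)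
    (T_symm B PR F hsymm) (key B PR F (2 ^ d) a hrow hint) (sum_a B PR hPR F (2 ^ d) l a htr hint)
    hodd hdiv hamgm h0 hl

end Cfsg.Agent.Lib.Helper12.SamC1
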