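import Cfsg.Agent.Lib.Helper12.SamC1

/-!
# Abstract counting core, part two

The second finite-sum core: if the number of characters exceeds the rank by at most three, it
is bounded by the order of the defect group.
-/

set_option autoImplicit false

namespace Cfsg.Agent.Lib.Helper12.SamC2

open scoped ComplexConjugate

open Cfsg.Agent.Lib.Helper12.SamC1

/-- Cauchy–Schwarz on the diagonal: the diagonal entries are real with sum `N * a`. -/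
theorem diag {I : Type*} (B : Finset I) (PR : Finset ℂ) (hPR : 0 < PR.card)
    (F : I → I → ℂ → ℂ) (a : I → ℤ)
    (hsymm : ∀ η ∈ PR, ∀ χ ∈ B, ∀ ψ ∈ B, F ψ χ η = conj (F χ ψ η))
    (hint : ∀ χ ∈ B, ∑ η ∈ PR, F χ χ η = (PR.card : ℂ) * (a χ : ℂ)) (χ : I) (hχ : χ ∈ B) :
    (PR.card : ℝ) * (a χ : ℝ) ^ 2 ≤ T PR F χ χ := by
  have hNr : (0 : ℝ) < (PR.card : ℝ) := by exact_mod_cast hPR
  have him : ∀ η ∈ PR, (F χ χ η).im = 0 := by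
    intro η hη
    have h1 := hsymm η hη χ hχ χ hχ
    exact Complex.conj_eq_iff_im.mp h1.symm
  have hT : T PR F χ χ = ∑ η ∈ PR, (F χ χ η).re ^ 2 := by
    unfold T
    refine Finset.sum_congr rfl fun η hη => ?_
    rw [Complex.normSq_apply, him η hη]
    ring
  have hre : ∑ η ∈ PR, (F χ χ η).re = (PR.card : ℝ) * (a χ : ℝ) := by
    have h1 := congrArg Complex.re (hint χ hχ)
    rw [Complex.re_sum] at h1
    rw [h1]
    simp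
  have hcs := sq_sum_le_card_mul_sum_sq (s := PR) (f := fun η => (F χ χ η).re)
  rw [hre, ← hT] at hcs
  have h2 : (PR.card : ℝ) * ((PR.card : ℝ) * (a χ : ℝ) ^ 2) ≤ (PR.card : ℝ) * T PR F χ χ := by
    calc (PR.card : ℝ) * ((PR.card : ℝ) * (a χ : ℝ) ^ 2)
        = ((PR.card : ℝ) * (a χ : ℝ)) ^ 2 := by ring
      _ ≤ (PR.card : ℝ) * T PR F χ χ := hcs
  exact le_of_mul_le_mul_left h2 hNr

theorem core_two {I : Type*} [DecidableEq I] (B : Finset I) (ht : I → ℕ) (N P d l : ℕ)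
    (a : I → ℤ) (T : I → I → ℝ) (hPd : P = 2 ^ d) (hN : 0 < N) (hT0 : ∀ χ ψ, 0 ≤ T χ ψ)
    (hTs : ∀ χ ∈ B, ∀ ψ ∈ B, T ψ χ = T χ ψ)
    (hkey : ∀ χ ∈ B, (P : ℝ) * ((N : ℝ) * (a χ : ℝ)) = ∑ ψ ∈ B, T χ ψ)
    (hsum : ∑ χ ∈ B, a χ = (P : ℤ) * (l : ℤ))
    (hodd : ∀ χ ∈ B, ht χ = 0 → Odd (a χ))
    (hdiv : ∀ χ ∈ B, 0 < ht χ → (2 : ℤ) ^ (ht χ + 1) ∣ a χ)
    (hamgm : ∀ χ ∈ B, ht χ = 0 → ∀ ψ ∈ B, (N : ℝ) * (4 : ℝ) ^ ht ψ ≤ T χ ψ)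
    (hdiag : ∀ χ ∈ B, (N : ℝ) * (a χ : ℝ) ^ 2 ≤ T χ χ)
    (h0 : ∃ χ ∈ B, ht χ = 0) (hd : 1 ≤ d) (hk : B.card ≤ l + 3) : B.card ≤ P := by
  have hP : 0 < P := by rw [hPd]; positivity
  have hPz : (P : ℤ) = (2 : ℤ) ^ d := by rw [hPd]; push_cast; rfl
  by_cases hB : B.card ≤ 1
  · exact hB.trans hP
  push Not at hB
  have hNr : (0 : ℝ) < (N : ℝ) := by exact_mod_cast hN
  have hPr : (0 : ℝ) < (P : ℝ) := by exact_mod_cast hP
  obtain ⟨χ₀, hχ₀, hht₀⟩ := h0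
  have hrange : ∀ χ ∈ B, 0 < a χ ∧ a χ < (P : ℤ) := by
    intro χ hχ
    have hex : ∃ ψ₁ ∈ B, ψ₁ ≠ χ ∧ 0 < T χ ψ₁ := by
      by_cases h : ht χ = 0
      · obtain ⟨ψ₁, hψ₁, hne⟩ := Finset.exists_mem_ne hB χ
        refine ⟨ψ₁, hψ₁, hne, ?_⟩
        have h1 := hamgm χ hχ h ψ₁ hψ₁
        have h2 : (0 : ℝ) < (N : ℝ) * (4 : ℝ) ^ ht ψ₁ := by positivity
        linarith
      · refine ⟨χ₀, hχ₀, ?_, ?_⟩
        · rintro rfl; exact h hht₀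
        · rw [hTs χ₀ hχ₀ χ hχ]
          have h1 := hamgm χ₀ hχ₀ hht₀ χ hχ
          have h2 : (0 : ℝ) < (N : ℝ) * (4 : ℝ) ^ ht χ := by positivity
          linarith
    obtain ⟨ψ₁, hψ₁, hne, hpos⟩ := hex
    have h1 : T χ χ + T χ ψ₁ ≤ ∑ ψ ∈ B, T χ ψ := by
      rw [← Finset.sum_pair (f := fun ψ => T χ ψ) hne.symm]
      apply Finset.sum_le_sum_of_subset_of_nonneg
      · intro x hx
        simp only [Finset.mem_insert, Finset.mem_singleton] at hx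
        rcases hx with rfl | rfl <;> assumption
      · intro x _ _; exact hT0 χ x
    have h2 := hkey χ hχ
    have h3 := hdiag χ hχ
    have h4 : (N : ℝ) * (a χ : ℝ) ^ 2 < (N : ℝ) * ((P : ℝ) * (a χ : ℝ)) := by linarith
    have h5 : (a χ : ℝ) ^ 2 < (P : ℝ) * (a χ : ℝ) := lt_of_mul_lt_mul_left h4 hNr.le
    have h6 : (a χ) ^ 2 < (P : ℤ) * a χ := by exact_mod_cast h5
    have hPn : (0 : ℤ) ≤ (P : ℤ) := Int.natCast_nonneg P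
    have hapos : 0 < a χ := by
      by_contra hle
      push Not at hle
      have h7 : (P : ℤ) * a χ ≤ 0 := mul_nonpos_of_nonneg_of_nonpos hPn hle
      nlinarith [sq_nonneg (a χ)]
    refine ⟨hapos, ?_⟩
    by_contra hge
    push Not at hge
    nlinarith [mul_nonneg (sub_nonneg.mpr hge) hapos.le]
  have hsum' : ∑ χ ∈ B, ((P : ℤ) - a χ) ≤ 3 * (P : ℤ) := by
    rw [Finset.sum_sub_distrib, Finset.sum_const, nsmul_eq_mul, hsum]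
    have h1 : (B.card : ℤ) ≤ (l : ℤ) + 3 := by exact_mod_cast hk
    have hPn : (0 : ℤ) ≤ (P : ℤ) := Int.natCast_nonneg P
    nlinarith [mul_le_mul_of_nonneg_right h1 hPn]
  by_cases hA : ∃ χ ∈ B, ht χ = 0 ∧ a χ = (P : ℤ) - 1
  · obtain ⟨χ₁, hχ₁, hht₁, ha₁⟩ := hA
    have h1 := hkey χ₁ hχ₁
    have h2 := hdiag χ₁ hχ₁
    have h3 : ∑ ψ ∈ B, T χ₁ ψ = T χ₁ χ₁ + ∑ ψ ∈ B.erase χ₁, T χ₁ ψ :=
      (Finset.add_sum_erase B _ hχ₁).symm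
    have h4 : ((B.card : ℝ) - 1) * (N : ℝ) ≤ ∑ ψ ∈ B.erase χ₁, T χ₁ ψ := by
      calc ((B.card : ℝ) - 1) * (N : ℝ) = ∑ ψ ∈ B.erase χ₁, (N : ℝ) := by
            rw [Finset.sum_const, nsmul_eq_mul, Finset.card_erase_of_mem hχ₁,
              Nat.cast_sub (by omega)]
            simp
        _ ≤ ∑ ψ ∈ B.erase χ₁, T χ₁ ψ := Finset.sum_le_sum fun ψ hψ => by
            have h41 := hamgm χ₁ hχ₁ hht₁ ψ (Finset.mem_of_mem_erase hψ)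
            have h42 : (1 : ℝ) ≤ (4 : ℝ) ^ ht ψ := one_le_pow₀ (by norm_num)
            nlinarith
    have ha₁r : (a χ₁ : ℝ) = (P : ℝ) - 1 := by rw [ha₁]; push_cast; ring
    rw [ha₁r] at h1 h2
    have h5 : (N : ℝ) * ((B.card : ℝ) - 1) ≤ (N : ℝ) * ((P : ℝ) - 1) := by nlinarith
    have h6 : (B.card : ℝ) - 1 ≤ (P : ℝ) - 1 := le_of_mul_le_mul_left h5 hNr
    have h7 : (B.card : ℝ) ≤ (P : ℝ) := by linarith
    exact_mod_cast h7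
  · push Not at hA
    have h3le : ∀ χ ∈ B, (3 : ℤ) ≤ (P : ℤ) - a χ := by
      intro χ hχ
      obtain ⟨hpos, hlt⟩ := hrange χ hχ
      by_cases h : ht χ = 0
      · have ho := hodd χ hχ h
        have hne := hA χ hχ h
        have hPe : (2 : ℤ) ∣ (P : ℤ) := by
          rw [hPz]; exact dvd_pow_self 2 (by omega)
        obtain ⟨k, hk⟩ := ho
        obtain ⟨m, hm⟩ := hPe
        omega
      · have hh : 0 < ht χ := Nat.pos_of_ne_zero h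
        have hdv := hdiv χ hχ hh
        have hle : (2 : ℤ) ^ (ht χ + 1) ≤ a χ := Int.le_of_dvd hpos hdv
        have hlt2 : (2 : ℤ) ^ (ht χ + 1) < (2 : ℤ) ^ d := by
          rw [← hPz]; exact lt_of_le_of_lt hle hlt
        have hexp : ht χ + 1 < d := by
          by_contra hcon
          push Not at hcon
          have h9 : (2 : ℤ) ^ d ≤ (2 : ℤ) ^ (ht χ + 1) := pow_le_pow_right₀ (by norm_num) hcon
          linarith
        have hdvP : (2 : ℤ) ^ (ht χ + 1) ∣ (P : ℤ) := by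
          rw [hPz]; exact pow_dvd_pow 2 hexp.le
        have hdv' : (2 : ℤ) ^ (ht χ + 1) ∣ (P : ℤ) - a χ := dvd_sub hdvP hdv
        have hle' : (2 : ℤ) ^ (ht χ + 1) ≤ (P : ℤ) - a χ := Int.le_of_dvd (by linarith) hdv'
        have h4 : (4 : ℤ) ≤ (2 : ℤ) ^ (ht χ + 1) := by
          calc (4 : ℤ) = 2 ^ 2 := by norm_num
            _ ≤ 2 ^ (ht χ + 1) := pow_le_pow_right₀ (by norm_num) (by omega)
        linarith
    have h8 : (3 : ℤ) * (B.card : ℤ) ≤ 3 * (P : ℤ) := by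
      calc (3 : ℤ) * (B.card : ℤ) = ∑ χ ∈ B, (3 : ℤ) := by
            rw [Finset.sum_const, nsmul_eq_mul]; ring
        _ ≤ ∑ χ ∈ B, ((P : ℤ) - a χ) := Finset.sum_le_sum h3le
        _ ≤ 3 * (P : ℤ) := hsum'
    have h9 : (B.card : ℤ) ≤ (P : ℤ) := by linarith
    exact_mod_cast h9

theorem sam_core_two {I : Type*} [DecidableEq I] (B : Finset I) (ht : I → ℕ) (PR : Finset ℂ)
    (hPR : 0 < PR.card) (F : I → I → ℂ → ℂ) (d l : ℕ) (a : I → ℤ)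
    (hrow : ∀ η ∈ PR, ∀ χ ∈ B,
      ∑ ψ ∈ B, F χ ψ η * conj (F χ ψ η) = ((2 ^ d : ℕ) : ℂ) * F χ χ η)
    (htr : ∀ η ∈ PR, ∑ χ ∈ B, F χ χ η = ((2 ^ d : ℕ) : ℂ) * (l : ℂ))
    (hsymm : ∀ η ∈ PR, ∀ χ ∈ B, ∀ ψ ∈ B, F ψ χ η = conj (F χ ψ η))
    (hint : ∀ χ ∈ B, ∑ η ∈ PR, F χ χ η = (PR.card : ℂ) * (a χ : ℂ))
    (hodd : ∀ χ ∈ B, ht χ = 0 → Odd (a χ))
    (hdiv : ∀ χ ∈ B, 0 < ht χ → (2 : ℤ) ^ (ht χ + 1) ∣ a χ)
    (hamgm : ∀ χ ∈ B, ht χ = 0 → ∀ ψ ∈ B,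
      (PR.card : ℝ) * (4 : ℝ) ^ ht ψ ≤ ∑ η ∈ PR, Complex.normSq (F χ ψ η))
    (h0 : ∃ χ ∈ B, ht χ = 0) (hd : 1 ≤ d) (hk : B.card ≤ l + 3) : B.card ≤ 2 ^ d :=
  core_two B ht PR.card (2 ^ d) d l a (T PR F) rfl hPR (T_nonneg PR F)
    (T_symm B PR F hsymm) (key B PR F (2 ^ d) a hrow hint) (sum_a B PR hPR F (2 ^ d) l a htr hint)
    hodd hdiv hamgm (diag B PR hPR F a hsymm hint) h0 hd hk

end Cfsg.Agent.Lib.Helper12.SamC2
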