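import Mathlib

/-!
# Transfer into a cyclic quotient of a Sylow `2`-subgroup

If `T` is strongly closed in the Sylow `2`-subgroup `S` of the finite group `G`, `T < S` and
`S / T` is cyclic, then `G` is not perfect.
-/

set_option autoImplicit false

namespace Cfsg.Agent.Lib.Helper12.TransferCyc

theorem conj_pow' {G : Type*} [Group G] (x u : G) (n : ℕ) :
    (x⁻¹ * u * x) ^ n = x⁻¹ * u ^ n * x := by
  have h := conj_pow (a := x⁻¹) (b := u) (i := n)
  rw [inv_inv] at h
  exact h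

/-- Abstract evaluation of the transfer at an element `u` of `2`-power order: if the
`e`-th power of the image of the conjugates of `u` in `H` is `z` and that of the conjugates of
even powers of `u` is trivial, where `z ^ 2 = 1` and `H` has odd index, then the transfer of
`u` is `z`. -/
theorem exists_hom_of_transfer {G : Type*} [Group G] [Finite G] (H : Subgroup G) {A : Type*}
    [Group A] (hcomm : ∀ a b : A, a * b = b * a) (φ : ↥H →* A) (e : ℕ) (u : G) (z : A)
    (hz : z ^ 2 = 1) (hodd : Odd H.index) (k : ℕ) (hu : u ^ (2 ^ k) = 1)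
    (h1 : ∀ (y : ↥H) (x : G), (y : G) = x⁻¹ * u * x → φ y ^ e = z)
    (h2 : ∀ (y : ↥H) (x : G) (n : ℕ), Even n → (y : G) = x⁻¹ * u ^ n * x → φ y ^ e = 1) :
    ∃ V : G →* A, V u = z := by
  classical
  let _ : CommGroup A := { (inferInstance : Group A) with mul_comm := hcomm }
  have : Fintype (Quotient (MulAction.orbitRel (Subgroup.zpowers u) (G ⧸ H))) :=
    Fintype.ofFinite _
  let ψ : ↥H →* A := (powMonoidHom e).comp φ
  have hψ : ∀ y : ↥H, ψ y = φ y ^ e := fun y => rfl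
  refine ⟨MonoidHom.transfer ψ, ?_⟩
  rw [MonoidHom.transfer_eq_prod_quotient_orbitRel_zpowers_quot ψ u]
  have hdvd : ∀ q : G ⧸ H, Function.minimalPeriod (u • ·) q ∣ 2 ^ k := by
    intro q
    rw [← MulAction.pow_smul_eq_iff_minimalPeriod_dvd, hu, one_smul]
  have hper : ∀ q : G ⧸ H, Function.minimalPeriod (u • ·) q = 1 ∨
      Even (Function.minimalPeriod (u • ·) q) := by
    intro q
    obtain ⟨j, -, hj⟩ := (Nat.dvd_prime_pow Nat.prime_two).mp (hdvd q)
    rcases Nat.eq_zero_or_pos j with rfl | hjpos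
    · left; simpa using hj
    · right; rw [hj]; exact (Nat.even_pow.mpr ⟨even_two, hjpos.ne'⟩)
  have hfac : ∀ q : Quotient (MulAction.orbitRel (Subgroup.zpowers u) (G ⧸ H)),
      ψ ⟨q.out.out⁻¹ * u ^ Function.minimalPeriod (u • ·) q.out * q.out.out,
        QuotientGroup.out_conj_pow_minimalPeriod_mem H u q.out⟩ =
      if Function.minimalPeriod (u • ·) q.out = 1 then z else 1 := by
    intro q
    rw [hψ]
    rcases hper q.out with h | h
    · rw [if_pos h]
      apply h1 _ q.out.out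
      simp only [h, pow_one]
    · have hne : Function.minimalPeriod (u • ·) q.out ≠ 1 := by
        intro h'
        rw [h'] at h
        exact absurd h (by decide)
      rw [if_neg hne]
      exact h2 _ q.out.out _ h rfl
  rw [Finset.prod_congr rfl (fun q _ => hfac q), Finset.prod_ite, Finset.prod_const,
    Finset.prod_const_one, mul_one]
  have hidx := Subgroup.index_eq_sum_minimalPeriod (H := H) u
  have hmod : ∀ q : Quotient (MulAction.orbitRel (Subgroup.zpowers u) (G ⧸ H)),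
      Function.minimalPeriod (u • ·) q.out % 2 =
        if Function.minimalPeriod (u • ·) q.out = 1 then 1 else 0 := by
    intro q
    rcases hper q.out with h | h
    · rw [if_pos h, h]
    · have hne : Function.minimalPeriod (u • ·) q.out ≠ 1 := by
        intro h'
        rw [h'] at h
        exact absurd h (by decide)
      rw [if_neg hne]
      exact Nat.even_iff.mp h
  have hcount : Odd (Finset.univ.filter
      (fun q : Quotient (MulAction.orbitRel (Subgroup.zpowers u) (G ⧸ H)) =>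
        Function.minimalPeriod (u • ·) q.out = 1)).card := by
    rw [Nat.odd_iff, Finset.card_filter, ← Finset.sum_congr rfl (fun q _ => hmod q),
      ← Finset.sum_nat_mod, ← hidx]
    exact Nat.odd_iff.mp hodd
  obtain ⟨c, hc⟩ := hcount
  rw [hc, pow_succ, pow_mul, hz, one_pow, one_mul]

theorem commutator_ne_top_of_cyclic_quotient {G : Type*} [Group G] [Finite G] (S : Sylow 2 G)
    (T : Subgroup G) (hTS : T ≤ (S : Subgroup G))
    (hT : ∀ x ∈ T, ∀ g : G, g * x * g⁻¹ ∈ (S : Subgroup G) → g * x * g⁻¹ ∈ T)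
    (u : G) (huS : u ∈ (S : Subgroup G))
    (hgen : T ⊔ Subgroup.zpowers u = (S : Subgroup G)) (hne : T ≠ (S : Subgroup G)) :
    commutator G ≠ ⊤ := by
  classical
  have : Fact (Nat.Prime 2) := ⟨Nat.prime_two⟩
  have hNn : (T.subgroupOf (S : Subgroup G)).Normal := by
    refine ⟨fun n hn g => ?_⟩
    rw [Subgroup.mem_subgroupOf] at hn ⊢
    have h1 : (g : G) * (n : G) * (g : G)⁻¹ ∈ (S : Subgroup G) := (g * n * g⁻¹).2
    exact hT _ hn _ h1
  obtain ⟨φ, hφ⟩ : ∃ φ : ↥(S : Subgroup G) →* ↥(S : Subgroup G) ⧸ T.subgroupOf (S : Subgroup G),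
      φ = QuotientGroup.mk' (T.subgroupOf (S : Subgroup G)) := ⟨_, rfl⟩
  have hφ1 : ∀ y : ↥(S : Subgroup G), φ y = 1 ↔ (y : G) ∈ T := by
    intro y
    rw [hφ, QuotientGroup.mk'_apply, QuotientGroup.eq_one_iff, Subgroup.mem_subgroupOf]
  have hsurj : Function.Surjective φ := by
    rw [hφ]; exact QuotientGroup.mk'_surjective _
  obtain ⟨ubar, hubar⟩ : ∃ ubar, ubar = φ ⟨u, huS⟩ := ⟨_, rfl⟩
  have hcyc : ∀ a : ↥(S : Subgroup G) ⧸ T.subgroupOf (S : Subgroup G),
      a ∈ Subgroup.zpowers ubar := by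
    have hK : (S : Subgroup G) ≤
        ((Subgroup.zpowers ubar).comap φ).map (S : Subgroup G).subtype := by
      refine hgen.ge.trans ?_
      apply sup_le
      · intro x hx
        refine ⟨⟨x, hTS hx⟩, ?_, rfl⟩
        rw [SetLike.mem_coe, Subgroup.mem_comap, (hφ1 _).mpr hx]
        exact Subgroup.one_mem _
      · rw [Subgroup.zpowers_le]
        refine ⟨⟨u, huS⟩, ?_, rfl⟩
        rw [SetLike.mem_coe, Subgroup.mem_comap, ← hubar]
        exact Subgroup.mem_zpowers _
    intro a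
    obtain ⟨s, rfl⟩ := hsurj a
    obtain ⟨s', hs', hss⟩ := hK s.2
    have hs : s' = s := Subtype.ext hss
    rw [← hs]
    exact hs'
  have hcomm : ∀ a b : ↥(S : Subgroup G) ⧸ T.subgroupOf (S : Subgroup G), a * b = b * a := by
    intro a b
    obtain ⟨i, rfl⟩ := Subgroup.mem_zpowers_iff.mp (hcyc a)
    obtain ⟨j, rfl⟩ := Subgroup.mem_zpowers_iff.mp (hcyc b)
    exact zpow_mul_comm ubar i j
  have hub1 : ubar ≠ 1 := by
    intro h
    have huT : u ∈ T := (hφ1 ⟨u, huS⟩).mp (hubar ▸ h)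
    apply hne
    rw [← hgen]
    exact (sup_eq_left.mpr ((Subgroup.zpowers_le).mpr huT)).symm
  have hpA : IsPGroup 2 (↥(S : Subgroup G) ⧸ T.subgroupOf (S : Subgroup G)) :=
    S.isPGroup'.to_quotient _
  obtain ⟨m, hm⟩ : ∃ m, orderOf ubar = 2 ^ m := by
    obtain ⟨k, hk⟩ := hpA ubar
    obtain ⟨m, -, hm⟩ := (Nat.dvd_prime_pow Nat.prime_two).mp (orderOf_dvd_of_pow_eq_one hk)
    exact ⟨m, hm⟩
  have hm1 : 1 ≤ m := by
    by_contra h
    have h0 : m = 0 := by omega
    rw [h0, pow_zero, orderOf_eq_one_iff] at hm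
    exact hub1 hm
  have hpow : ubar ^ (2 ^ m) = 1 := by rw [← hm, pow_orderOf_eq_one]
  have hexp : ∀ a : ↥(S : Subgroup G) ⧸ T.subgroupOf (S : Subgroup G), a ^ (2 ^ m) = 1 := by
    intro a
    obtain ⟨j, rfl⟩ := Subgroup.mem_zpowers_iff.mp (hcyc a)
    rw [← zpow_natCast, ← zpow_mul, mul_comm, zpow_mul, zpow_natCast, hpow, one_zpow]
  obtain ⟨z, hz⟩ : ∃ z, z = ubar ^ (2 ^ (m - 1)) := ⟨_, rfl⟩
  have h2m : 2 ^ m = 2 ^ (m - 1) * 2 := by rw [← pow_succ, Nat.sub_add_cancel hm1]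
  have hz1 : z ≠ 1 := by
    rw [hz]
    apply pow_ne_one_of_lt_orderOf (by positivity)
    rw [hm]
    exact Nat.pow_lt_pow_right (by norm_num) (by omega)
  have hz2 : z ^ 2 = 1 := by
    rw [hz, ← pow_mul, ← h2m, hpow]
  have huniq : ∀ a : ↥(S : Subgroup G) ⧸ T.subgroupOf (S : Subgroup G),
      a ^ 2 = 1 → a ≠ 1 → a = z := by
    intro a ha2 ha1
    have hmem : a ∈ Submonoid.powers ubar := by
      rw [mem_powers_iff_mem_zpowers]; exact hcyc a
    obtain ⟨j, rfl⟩ := (Submonoid.mem_powers_iff _ _).mp hmem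
    rw [← pow_mul] at ha2
    have hd : 2 ^ m ∣ j * 2 := by
      rw [← hm]; exact orderOf_dvd_of_pow_eq_one ha2
    have hd' : 2 ^ (m - 1) ∣ j := by
      rw [h2m] at hd
      exact Nat.dvd_of_mul_dvd_mul_right (by norm_num) hd
    obtain ⟨c, rfl⟩ := hd'
    rw [pow_mul, ← hz] at ha1 ⊢
    rcases Nat.even_or_odd c with ⟨e, rfl⟩ | ⟨e, rfl⟩
    · exfalso
      apply ha1
      rw [← two_mul, pow_mul, hz2, one_pow]
    · rw [pow_succ, pow_mul, hz2, one_pow, one_mul]
  -- `u` has `2`-power order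
  obtain ⟨k, hk⟩ := S.isPGroup' ⟨u, huS⟩
  have hu : u ^ (2 ^ k) = 1 := by
    have := congrArg Subtype.val hk
    simpa using this
  have hodd : Odd (S : Subgroup G).index := by
    rw [← Nat.not_even_iff_odd, even_iff_two_dvd]
    exact S.not_dvd_index
  -- powers of `u` in `T`
  have hupowT : ∀ j : ℕ, ubar ^ j = 1 → u ^ j ∈ T := by
    intro j hj
    have h1 : φ (⟨u, huS⟩ ^ j) = 1 := by rw [map_pow, ← hubar, hj]
    have h2 := (hφ1 _).mp h1
    simpa using h2
  have h1 : ∀ (y : ↥(S : Subgroup G)) (x : G), (y : G) = x⁻¹ * u * x →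
      φ y ^ (2 ^ (m - 1)) = z := by
    intro y x hy
    apply huniq
    · rw [← pow_mul, ← h2m]
      exact hexp _
    · intro h
      rw [← map_pow] at h
      have h3 := (hφ1 _).mp h
      rw [Subgroup.coe_pow, hy, conj_pow'] at h3
      have h4 : x * (x⁻¹ * u ^ 2 ^ (m - 1) * x) * x⁻¹ ∈ (S : Subgroup G) := by
        have : x * (x⁻¹ * u ^ 2 ^ (m - 1) * x) * x⁻¹ = u ^ 2 ^ (m - 1) := by
          simp [mul_assoc]
        rw [this]
        exact Subgroup.pow_mem _ huS _
      have h5 := hT _ h3 x h4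
      have h6 : x * (x⁻¹ * u ^ 2 ^ (m - 1) * x) * x⁻¹ = u ^ 2 ^ (m - 1) := by
        simp [mul_assoc]
      rw [h6] at h5
      apply hz1
      rw [hz, hubar, ← map_pow]
      apply (hφ1 _).mpr
      simpa using h5
  have h2 : ∀ (y : ↥(S : Subgroup G)) (x : G) (n : ℕ), Even n → (y : G) = x⁻¹ * u ^ n * x →
      φ y ^ (2 ^ (m - 1)) = 1 := by
    intro y x n hn hy
    rw [← map_pow]
    apply (hφ1 _).mpr
    obtain ⟨c, rfl⟩ := hn
    have hw : (u ^ (c + c)) ^ 2 ^ (m - 1) ∈ T := by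
      have h3 : (u ^ (c + c)) ^ 2 ^ (m - 1) = (u ^ 2 ^ m) ^ c := by
        rw [← pow_mul, ← pow_mul, h2m]
        congr 1
        ring
      rw [h3]
      exact Subgroup.pow_mem _ (hupowT _ hpow) _
    have h4 : ((y ^ 2 ^ (m - 1) : ↥(S : Subgroup G)) : G) =
        x⁻¹ * (u ^ (c + c)) ^ 2 ^ (m - 1) * x⁻¹⁻¹ := by
      rw [Subgroup.coe_pow, hy, conj_pow', inv_inv]
    have h5 : x⁻¹ * (u ^ (c + c)) ^ 2 ^ (m - 1) * x⁻¹⁻¹ ∈ (S : Subgroup G) := by
      rw [← h4]
      exact (y ^ 2 ^ (m - 1)).2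
    rw [h4]
    exact hT _ hw x⁻¹ h5
  obtain ⟨V, hV⟩ := exists_hom_of_transfer (S : Subgroup G) hcomm φ (2 ^ (m - 1)) u z hz2 hodd
    k hu h1 h2
  intro htop
  have hker : commutator G ≤ V.ker := by
    rw [commutator_def, Subgroup.commutator_le]
    intro g _ h _
    rw [MonoidHom.mem_ker, commutatorElement_def, map_mul, map_mul, map_mul, map_inv, map_inv,
      hcomm (V g) (V h)]
    group
  have hmem : u ∈ V.ker := hker (htop ▸ Subgroup.mem_top u)
  rw [MonoidHom.mem_ker, hV] at hmem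
  exact hz1 hmem

end Cfsg.Agent.Lib.Helper12.TransferCyc
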