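import Mathlib
import Cfsg.Agent.S0713

set_option autoImplicit false

namespace Cfsg.Agent.Lib.Helper12.TwoPr

open Equiv Equiv.Perm MulAction

theorem perm_inv_apply_self' {α : Type*} (f : Perm α) (x : α) : f⁻¹ (f x) = x :=
  Perm.inv_eq_iff_eq.mpr rfl

/-- INV: an even involution on 13 points moves 4, 8 or 12 points. -/
theorem inv_support_13 {Ω : Type*} [Fintype Ω] [DecidableEq Ω] (hΩ : Fintype.card Ω = 13)
    (t : Perm Ω) (ht : t ∈ alternatingGroup Ω) (h2 : orderOf t = 2) :
    t.support.card = 4 ∨ t.support.card = 8 ∨ t.support.card = 12 := by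
  have hp : (orderOf t).Prime := by rw [h2]; exact Nat.prime_two
  obtain ⟨n, hn⟩ := Perm.cycleType_prime_order hp
  rw [h2] at hn
  have hsum : t.support.card = 2 * (n + 1) := by
    rw [← Perm.sum_cycleType, hn, Multiset.sum_replicate, smul_eq_mul, mul_comm]
  have hsign : Perm.sign t = 1 := (Perm.mem_alternatingGroup).mp ht
  rw [Perm.sign_of_cycleType, hn, Multiset.sum_replicate, Multiset.card_replicate,
    smul_eq_mul] at hsign
  have hev : Even ((n + 1) * 2 + (n + 1)) :=
    (neg_one_pow_eq_one_iff_even (R := ℤˣ) (by decide)).mp hsign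
  have hle : t.support.card ≤ 13 := by rw [← hΩ]; exact Finset.card_le_univ _
  rw [Nat.even_iff] at hev
  omega

/-- free-orbit count: a group of order divisible by 8 cannot fix one of 13 points and act
freely on the other 12. -/
theorem free_count_13 {Ω : Type*} [Fintype Ω] [DecidableEq Ω] (hΩ : Fintype.card Ω = 13)
    (S : Subgroup (Perm Ω)) (w : Ω) (hw : ∀ s ∈ S, s w = w)
    (hfree : ∀ s ∈ S, s ≠ 1 → ∀ x, x ≠ w → s x ≠ x) (h8 : 8 ∣ Nat.card S) : False := by
  classical
  have : Fintype S := Fintype.ofFinite _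
  have hcS : Nat.card S = Fintype.card S := Nat.card_eq_fintype_card
  let O : Ω → Finset Ω := fun x => Finset.univ.image (fun s : S => (s : Perm Ω) x)
  have hOcard : ∀ x, x ≠ w → (O x).card = Fintype.card S := by
    intro x hx
    apply Finset.card_image_of_injective
    intro s s' hss
    by_contra hne
    have h1 : ((s' : Perm Ω)⁻¹ * (s : Perm Ω)) ≠ 1 := by
      intro h
      apply hne
      apply Subtype.ext
      exact (inv_mul_eq_one.mp h).symm
    apply hfree _ (S.mul_mem (S.inv_mem s'.2) s.2) h1 x hx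
    rw [Perm.mul_apply, Perm.inv_eq_iff_eq]
    exact hss
  have hOw : ∀ x, x ≠ w → w ∉ O x := by
    intro x hx hmem
    obtain ⟨s, -, hs⟩ := Finset.mem_image.mp hmem
    apply hx
    have h1 := hw _ (S.inv_mem s.2)
    have h2 : (s : Perm Ω)⁻¹ ((s : Perm Ω) x) = x := perm_inv_apply_self' _ _
    have hs' : (s : Perm Ω) x = w := hs
    rw [hs', h1] at h2
    exact h2.symm
  have hpos : 0 < Nat.card S := Nat.card_pos
  have h8le : 8 ≤ Fintype.card S := by rw [← hcS]; exact Nat.le_of_dvd hpos h8
  obtain ⟨x, hx⟩ : ∃ x, x ≠ w := by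
    by_contra hcon
    push Not at hcon
    have : Fintype.card Ω ≤ 1 := Fintype.card_le_one_iff.mpr (fun a b => by rw [hcon a, hcon b])
    omega
  obtain ⟨y, hy⟩ : ∃ y, y ∉ insert w (O x) := by
    by_contra hcon
    push Not at hcon
    have huniv : insert w (O x) = Finset.univ := Finset.eq_univ_iff_forall.mpr hcon
    have hc : (insert w (O x)).card = 13 := by rw [huniv, Finset.card_univ, hΩ]
    rw [Finset.card_insert_of_notMem (hOw x hx), hOcard x hx] at hc
    rw [hcS] at h8
    omega
  have hyw : y ≠ w := fun h => hy (by rw [h]; exact Finset.mem_insert_self _ _)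
  have hyO : y ∉ O x := fun h => hy (Finset.mem_insert_of_mem h)
  have hdisj : Disjoint (O x) (O y) := by
    rw [Finset.disjoint_left]
    intro z hzx hzy
    obtain ⟨s, -, hs⟩ := Finset.mem_image.mp hzx
    obtain ⟨s', -, hs'⟩ := Finset.mem_image.mp hzy
    apply hyO
    refine Finset.mem_image.mpr ⟨s'⁻¹ * s, Finset.mem_univ _, ?_⟩
    have hs1 : (s : Perm Ω) x = z := hs
    have hs2 : (s' : Perm Ω) y = z := hs'
    show ((s'⁻¹ * s : S) : Perm Ω) x = y
    rw [Subgroup.coe_mul, Subgroup.coe_inv, Perm.mul_apply, hs1, ← hs2, perm_inv_apply_self']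
  have hwU : w ∉ O x ∪ O y := by
    rw [Finset.mem_union]
    rintro (h | h)
    · exact hOw x hx h
    · exact hOw y hyw h
  have hcard : (insert w (O x ∪ O y)).card = 1 + 2 * Fintype.card S := by
    rw [Finset.card_insert_of_notMem hwU, Finset.card_union_of_disjoint hdisj, hOcard x hx,
      hOcard y hyw]
    ring
  have hle : (insert w (O x ∪ O y)).card ≤ 13 := by rw [← hΩ]; exact Finset.card_le_univ _
  omega

/-- TP-4ODD -/
theorem t13_four_odd {Ω : Type*} [Fintype Ω] [DecidableEq Ω] (hΩ : Fintype.card Ω = 13)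
    (K : Subgroup (Perm Ω)) (hKA : K ≤ alternatingGroup Ω)
    (h4 : IsMultiplyPretransitive K Ω 4) (A : Finset Ω) (hA : A.card = 4)
    (hodd : Odd (Nat.card (Cfsg.Agent.S0713.fixG K A))) : False := by
  classical
  have hcardΩ : Nat.card Ω = 13 := by rw [Nat.card_eq_fintype_card, hΩ]
  -- step 1: 8 divides |K|
  have h8 : 8 ∣ Nat.card K := by
    have h1 := h4.index_of_fixingSubgroup_mul (s := (A : Set Ω))
      (by rw [Set.ncard_coe_finset, hA])
    rw [hcardΩ] at h1
    have h2 : (fixingSubgroup K (A : Set Ω)).index = 17160 := by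
      have e1 : (13 - 4).factorial = 362880 := by decide
      have e2 : (13).factorial = 6227020800 := by decide
      rw [e1, e2] at h1
      omega
    have h3 := Subgroup.index_dvd_card (fixingSubgroup K (A : Set Ω))
    rw [h2] at h3
    exact Dvd.dvd.trans (by norm_num) h3
  -- step 2: an involution of K fixes at most one point
  have hinv : ∀ t ∈ K, orderOf t = 2 → ∀ x y, x ≠ y → t x = x → t y = y → False := by
    intro t htK ht2 x y hxy hx hy
    have hsup := inv_support_13 hΩ t (hKA htK) ht2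
    have hxs : x ∉ t.support := Perm.notMem_support.mpr hx
    have hys : y ∉ t.support := Perm.notMem_support.mpr hy
    have hle : t.support.card + 2 ≤ 13 := by
      have hyi : y ∉ insert x t.support := by
        rw [Finset.mem_insert]
        rintro (h | h)
        · exact hxy h.symm
        · exact hys h
      have hc : (insert y (insert x t.support)).card = t.support.card + 2 := by
        rw [Finset.card_insert_of_notMem hyi, Finset.card_insert_of_notMem hxs]
      rw [← hc, ← hΩ]
      exact Finset.card_le_univ _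
    have h5 : 4 ≤ (t.supportᶜ).card := by
      rw [Finset.card_compl, hΩ]
      omega
    obtain ⟨B, hB, hBc⟩ := Finset.exists_subset_card_eq h5
    let eB : Fin 4 ↪ Ω :=
      ((Finset.equivFinOfCardEq hBc).symm.toEmbedding).trans (Function.Embedding.subtype _)
    let eA : Fin 4 ↪ Ω :=
      ((Finset.equivFinOfCardEq hA).symm.toEmbedding).trans (Function.Embedding.subtype _)
    obtain ⟨g, hg⟩ := h4.exists_smul_eq eB eA
    have hgi : ∀ i, (g : Perm Ω) (eB i) = eA i := by
      intro i
      have h := congrArg (fun f : Fin 4 ↪ Ω => f i) hg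
      exact h
    have hmem : (g : Perm Ω) * t * (g : Perm Ω)⁻¹ ∈ Cfsg.Agent.S0713.fixG K A := by
      refine ⟨K.mul_mem (K.mul_mem g.2 htK) (K.inv_mem g.2), ?_⟩
      intro d hd
      have hd' : eA (Finset.equivFinOfCardEq hA ⟨d, hd⟩) = d := by simp [eA]
      have hBi : eB (Finset.equivFinOfCardEq hA ⟨d, hd⟩) ∈ B := by simp [eB]
      have hfix := hB hBi
      rw [Finset.mem_compl, Perm.notMem_support] at hfix
      rw [← hd', ← hgi, Perm.mul_apply, Perm.mul_apply, perm_inv_apply_self', hfix]
    have ho : orderOf ((g : Perm Ω) * t * (g : Perm Ω)⁻¹) = 2 := by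
      have : Fact (Nat.Prime 2) := ⟨Nat.prime_two⟩
      apply orderOf_eq_prime
      · rw [conj_pow, ← ht2, pow_orderOf_eq_one, mul_one, mul_inv_cancel]
      · intro h
        have ht1 : t = 1 := by
          have h' := congrArg (fun u => (g : Perm Ω)⁻¹ * u * (g : Perm Ω)) h
          simpa [mul_assoc] using h'
        rw [ht1, orderOf_one] at ht2
        omega
    have hdvd : 2 ∣ Nat.card (Cfsg.Agent.S0713.fixG K A) := by
      have h := orderOf_dvd_natCard (⟨_, hmem⟩ : Cfsg.Agent.S0713.fixG K A)
      rw [Subgroup.orderOf_mk, ho] at h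
      exact h
    exact (Nat.not_even_iff_odd.mpr hodd) (even_iff_two_dvd.mpr hdvd)
  -- step 3: a Sylow 2-subgroup and its fixed point
  have : Fact (Nat.Prime 2) := ⟨Nat.prime_two⟩
  obtain ⟨P⟩ : Nonempty (Sylow 2 K) := inferInstance
  let S : Subgroup (Perm Ω) := (P : Subgroup K).map K.subtype
  have hSK : S ≤ K := by
    rintro _ ⟨x, _, rfl⟩
    exact x.2
  have hSp : IsPGroup 2 S := P.isPGroup'.map K.subtype
  have hScard : Nat.card S = Nat.card (P : Subgroup K) :=
    Subgroup.card_map_of_injective K.subtype_injective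
  have h8S : 8 ∣ Nat.card S := by
    rw [hScard]
    exact P.pow_dvd_card_of_pow_dvd_card (n := 3) h8
  have hfp := hSp.card_modEq_card_fixedPoints Ω
  rw [hcardΩ] at hfp
  have hne : (fixedPoints S Ω).Nonempty := by
    by_contra hcon
    rw [Set.not_nonempty_iff_eq_empty] at hcon
    rw [hcon] at hfp
    simp [Nat.ModEq] at hfp
  obtain ⟨w, hw⟩ := hne
  have hw' : ∀ s ∈ S, s w = w := fun s hs => hw ⟨s, hs⟩
  -- step 4: freeness off w
  have hfree : ∀ s ∈ S, s ≠ 1 → ∀ x, x ≠ w → s x ≠ x := by
    intro s hs hs1 x hxw hsx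
    obtain ⟨k, hk⟩ := (IsPGroup.iff_orderOf.mp hSp) ⟨s, hs⟩
    rw [Subgroup.orderOf_mk] at hk
    have hk0 : k ≠ 0 := by
      rintro rfl
      rw [pow_zero, orderOf_eq_one_iff] at hk
      exact hs1 hk
    have ht2 : orderOf (s ^ 2 ^ (k - 1)) = 2 := by
      rw [orderOf_pow_of_dvd (by positivity) (by rw [hk]; exact pow_dvd_pow 2 (by omega)), hk,
        Nat.pow_div (by omega) (by norm_num)]
      have hk1 : k - (k - 1) = 1 := by omega
      rw [hk1, pow_one]
    exact hinv (s ^ 2 ^ (k - 1)) (K.pow_mem (hSK hs) _) ht2 x w hxw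
      (Perm.pow_apply_eq_self_of_apply_eq_self hsx _)
      (Perm.pow_apply_eq_self_of_apply_eq_self (hw' s hs) _)
  exact free_count_13 hΩ S w hw' hfree h8S

end Cfsg.Agent.Lib.Helper12.TwoPr
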