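import Mathlib
import Cfsg.Agent.S0713
import Cfsg.Agent.S0680
import Cfsg.Agent.Lib.Helper11.Sharp

set_option autoImplicit false

namespace Cfsg.Agent.Lib.Helper12.TwoPr

open Equiv Equiv.Perm MulAction

/-- an injective pair as an embedding of `Fin 2` -/
theorem exists_emb_two {β : Type*} (x y : β) (hxy : x ≠ y) :
    ∃ e : Fin 2 ↪ β, e 0 = x ∧ e 1 = y := by
  refine ⟨⟨fun i => if i = 0 then x else y, ?_⟩, ?_, ?_⟩
  · intro i j hij
    by_cases hi : i = 0
    · by_cases hj : j = 0
      · rw [hi, hj]
      · exfalso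
        apply hxy
        simpa [hi, hj] using hij
    · by_cases hj : j = 0
      · exfalso
        apply hxy
        have : y = x := by simpa [hi, hj] using hij
        exact this.symm
      · have hi1 : i = 1 := by omega
        have hj1 : j = 1 := by omega
        rw [hi1, hj1]
  · rfl
  · rfl

/-- TP-S11: there is no sharply 3-transitive group of degree 13. -/
theorem t13_solv_11 {Ω : Type*} [Fintype Ω] [DecidableEq Ω] (hΩ : Fintype.card Ω = 13)
    (K : Subgroup (Perm Ω)) (h3 : IsMultiplyPretransitive K Ω 3)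
    (hcard : Nat.card K = 1716) : False := by
  classical
  have hs : ∀ x : Fin 3 ↪ Ω, stabilizer K x = ⊥ := by
    intro x
    have h1 := @index_stabilizer_of_transitive K _ _ _ x h3
    have h2 : Nat.card (Fin 3 ↪ Ω) = 1716 := by
      rw [Nat.card_eq_fintype_card, Fintype.card_embedding_eq, Fintype.card_fin, hΩ]
      rfl
    have h4 := Subgroup.index_mul_card (stabilizer K x)
    rw [h1, h2, hcard] at h4
    have h5 : Nat.card (stabilizer K x) = 1 := by omega
    exact Subgroup.card_eq_one.mp h5
  obtain ⟨a⟩ : Nonempty Ω := Fintype.card_pos_iff.mp (by omega)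
  have hcardΩ : Nat.card Ω = 13 := by rw [Nat.card_eq_fintype_card, hΩ]
  have hsh := Cfsg.Agent.Lib.Helper11.sharp_ofStabilizer (k := 2) hs a
  have hpt : IsMultiplyPretransitive (stabilizer K a) (SubMulAction.ofStabilizer K a) 2 :=
    Cfsg.Agent.Lib.Helper11.pretransitive_ofStabilizer (k := 2) (by omega) a
  have hc12 : Nat.card (SubMulAction.ofStabilizer K a) = 12 := by
    rw [SubMulAction.nat_card_ofStabilizer_eq K a, hcardΩ]
  have : Fintype (stabilizer K a) := Fintype.ofFinite _
  have : Fintype (SubMulAction.ofStabilizer K a) := Fintype.ofFinite _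
  have hc12' : Fintype.card (SubMulAction.ofStabilizer K a) = 12 := by
    rw [← Nat.card_eq_fintype_card, hc12]
  have hT : ∀ a1 b c d : SubMulAction.ofStabilizer K a, a1 ≠ b → c ≠ d →
      ∃ g : stabilizer K a, g • a1 = c ∧ g • b = d := by
    intro a1 b c d hab hcd
    exact (MulAction.is_two_pretransitive_iff.mp hpt) hab hcd
  have hU : ∀ (g : stabilizer K a) (a1 b : SubMulAction.ofStabilizer K a), a1 ≠ b →
      g • a1 = a1 → g • b = b → g = 1 := by
    intro g a1 b hab h1 h2
    obtain ⟨y, hy0, hy1⟩ := exists_emb_two a1 b hab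
    have hy : g ∈ stabilizer (stabilizer K a) y := by
      rw [mem_stabilizer_iff]
      ext i
      rw [Function.Embedding.smul_apply]
      by_cases hi : i = 0
      · rw [hi, hy0, h1]
      · have hi1 : i = 1 := by omega
        rw [hi1, hy1, h2]
    rw [hsh y] at hy
    exact Subgroup.mem_bot.mp hy
  obtain ⟨N, p, j, hp, hj, hpj, -⟩ :=
    Cfsg.Agent.S0680.main (G := stabilizer K a) (α := SubMulAction.ofStabilizer K a) hT hU
      (by omega)
  rw [hc12'] at hpj
  have hpd : p ∣ 12 := by
    rw [hpj]
    exact dvd_pow_self p (by omega)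
  have hple : p ≤ 12 := Nat.le_of_dvd (by norm_num) hpd
  have hp2 := hp.two_le
  have hjle : j < 4 := by
    by_contra hcon
    have h6 : p ^ 4 ≤ p ^ j := Nat.pow_le_pow_right (by omega) (by omega)
    have h7 : 2 ^ 4 ≤ p ^ 4 := Nat.pow_le_pow_left hp2 4
    omega
  clear hT hU hsh hpt hs h3
  interval_cases p <;> interval_cases j <;> simp at hpj <;> exact absurd hp (by decide)

end Cfsg.Agent.Lib.Helper12.TwoPr
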